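import Cfsg.Agent.Lib.Helper88.CoprimeSmall

set_option autoImplicit false

/-! The exponent of a nilpotent group of class `c` divides `exp(Z(G))^c` (helper84). -/

namespace Cfsg.Agent.Lib.Helper84

open scoped commutatorElement

variable {G : Type*} [Group G]

theorem pow_mem_upperCentralSeries {e : ℕ} (he : ∀ z ∈ Subgroup.center G, z ^ e = 1) (i : ℕ) :
    ∀ x ∈ Subgroup.upperCentralSeries G (i + 1), x ^ e ∈ Subgroup.upperCentralSeries G i := by
  induction i with
  | zero =>
    intro x hx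
    rw [zero_add, Subgroup.upperCentralSeries_one] at hx
    rw [he x hx]
    exact Subgroup.one_mem _
  | succ i ih =>
    intro x hx
    rw [Subgroup.mem_upperCentralSeries_succ_iff]
    intro y
    rw [Subgroup.mem_upperCentralSeries_succ_iff] at hx
    have hxy := hx y
    have hc1 := ih _ hxy
    rw [Subgroup.mem_upperCentralSeries_succ_iff] at hxy
    rw [← QuotientGroup.eq_one_iff] at hc1 ⊢
    obtain ⟨a, ha⟩ : ∃ a : G ⧸ Subgroup.upperCentralSeries G i, a = (x : G ⧸ _) := ⟨_, rfl⟩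
    obtain ⟨b, hb⟩ : ∃ b : G ⧸ Subgroup.upperCentralSeries G i, b = (y : G ⧸ _) := ⟨_, rfl⟩
    have hc : ((⁅x, y⁆ : G) : G ⧸ Subgroup.upperCentralSeries G i) = a * b * a⁻¹ * b⁻¹ := by
      rw [commutatorElement_def, ha, hb]; rfl
    have hcomm : Commute (a * b * a⁻¹ * b⁻¹) a := by
      have h1 := hxy x
      rw [← QuotientGroup.eq_one_iff, commutatorElement_def] at h1
      have h2 : ((⁅x, y⁆ : G) : G ⧸ Subgroup.upperCentralSeries G i) * a *
          ((⁅x, y⁆ : G) : G ⧸ Subgroup.upperCentralSeries G i)⁻¹ * a⁻¹ = 1 := by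
        rw [ha]; exact h1
      rw [hc] at h2
      show a * b * a⁻¹ * b⁻¹ * a = a * (a * b * a⁻¹ * b⁻¹)
      have h3 := congrArg (· * a * (a * b * a⁻¹ * b⁻¹)) h2
      simp only [one_mul] at h3
      rw [← h3]
      group
    have h4 := Cfsg.Agent.Lib.Helper88.pow_mul_comm_central (x := a) (y := b)
      (c := a * b * a⁻¹ * b⁻¹) (by group) hcomm e
    have h5 : (a * b * a⁻¹ * b⁻¹) ^ e = 1 := by
      rw [← hc]; exact hc1
    rw [h5, one_mul] at h4
    have h6 : ((⁅x ^ e, y⁆ : G) : G ⧸ Subgroup.upperCentralSeries G i) =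
        a ^ e * b * (a ^ e)⁻¹ * b⁻¹ := by
      rw [commutatorElement_def, ha, hb]; rfl
    rw [h6, h4]
    group

theorem pow_eq_one_of_mem_upperCentralSeries {e : ℕ} (he : ∀ z ∈ Subgroup.center G, z ^ e = 1)
    (i : ℕ) : ∀ x ∈ Subgroup.upperCentralSeries G i, x ^ (e ^ i) = 1 := by
  induction i with
  | zero =>
    intro x hx
    rw [Subgroup.upperCentralSeries_zero, Subgroup.mem_bot] at hx
    rw [hx, one_pow]
  | succ i ih =>
    intro x hx
    rw [pow_succ', pow_mul]
    exact ih _ (pow_mem_upperCentralSeries he i x hx)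

end Cfsg.Agent.Lib.Helper84
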