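import Mathlib

set_option autoImplicit false

/-! If `x^p = 1` and `(x-1)^(n(p-1)+1) = 0` then `p^n (x-1) = 0` (helper84). -/

namespace Cfsg.Agent.Lib.Helper84

open Polynomial

theorem comm_step {B : Type*} [CommRing B] {p : ℕ} (hp : p.Prime) {y : B} {m : ℕ} (hm : y ^ m = 0)
    (hy : (1 + y) ^ p = 1) : ∀ d k : ℕ, 1 ≤ k → m ≤ k + d → y ^ (k + (p - 1)) ∣ (p : B) * y ^ k := by
  intro d
  induction d with
  | zero =>
    intro k _ hk
    have : y ^ k = 0 := by
      obtain ⟨j, rfl⟩ := Nat.exists_eq_add_of_le (by simpa using hk : m ≤ k)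
      rw [pow_add, hm, zero_mul]
    rw [this, mul_zero]
    exact dvd_zero _
  | succ d ih =>
    intro k hk1 hk
    obtain ⟨q, rfl⟩ : ∃ q, p = q + 1 := ⟨p - 1, by have := hp.pos; omega⟩
    obtain ⟨k', rfl⟩ : ∃ k', k = k' + 1 := ⟨k - 1, by omega⟩
    have hsum : ∑ i ∈ Finset.range (q + 1 + 1), y ^ i * ((q + 1).choose i : B) = 1 := by
      have := add_pow y 1 (q + 1)
      rw [add_comm y 1, hy] at this
      simpa using this.symm
    rw [Finset.sum_range_succ', Finset.sum_range_succ'] at hsum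
    simp only [pow_zero, Nat.choose_zero_right, Nat.cast_one, mul_one, zero_add, pow_one,
      Nat.choose_one_right] at hsum
    have h1 : ((q + 1 : ℕ) : B) * y = - ∑ i ∈ Finset.range q, y ^ (i + 1 + 1) * ((q + 1).choose (i + 1 + 1) : B) := by
      have : ∑ i ∈ Finset.range q, y ^ (i + 1 + 1) * ((q + 1).choose (i + 1 + 1) : B) + y * ((q + 1 : ℕ) : B) = 0 := by
        have := hsum
        linear_combination this
      linear_combination this
    have h2 : ((q + 1 : ℕ) : B) * y ^ (k' + 1) =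
        - ∑ i ∈ Finset.range q, y ^ k' * (y ^ (i + 1 + 1) * ((q + 1).choose (i + 1 + 1) : B)) := by
      rw [← Finset.mul_sum, pow_succ]
      linear_combination y ^ k' * h1
    rw [h2, dvd_neg]
    apply Finset.dvd_sum
    intro i hi
    rw [Finset.mem_range] at hi
    have hq : q + 1 - 1 = q := by omega
    rw [hq]
    by_cases hiq : i + 1 = q
    · have : y ^ k' * (y ^ (i + 1 + 1) * ((q + 1).choose (i + 1 + 1) : B)) = y ^ (k' + 1 + q) := by
        rw [hiq, Nat.choose_self]
        ring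
      rw [this]
    · have hdvd : (q + 1) ∣ (q + 1).choose (i + 1 + 1) :=
        hp.dvd_choose_self (by omega) (by omega)
      obtain ⟨c, hc⟩ := hdvd
      have h3 := ih (k' + (i + 1 + 1)) (by omega) (by omega)
      rw [hq] at h3
      have h4 : y ^ k' * (y ^ (i + 1 + 1) * ((q + 1).choose (i + 1 + 1) : B)) =
          (c : B) * (((q + 1 : ℕ) : B) * y ^ (k' + (i + 1 + 1))) := by
        rw [hc]
        push_cast
        ring
      rw [h4]
      apply Dvd.dvd.mul_left
      exact (pow_dvd_pow y (by omega)).trans h3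

theorem comm_pow {B : Type*} [CommRing B] {p : ℕ} (hp : p.Prime) {y : B} {m : ℕ} (hm : y ^ m = 0)
    (hy : (1 + y) ^ p = 1) (n : ℕ) : y ^ (n * (p - 1) + 1) ∣ (p : B) ^ n * y := by
  induction n with
  | zero => simp
  | succ n ih =>
    obtain ⟨r, hr⟩ := ih
    have h1 := comm_step hp hm hy m (n * (p - 1) + 1) (by omega) (by omega)
    have h2 : (p : B) ^ (n + 1) * y = ((p : B) * y ^ (n * (p - 1) + 1)) * r := by
      rw [pow_succ, mul_assoc, mul_comm (p : B) y, ← mul_assoc, hr]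
      ring
    rw [h2]
    apply Dvd.dvd.mul_right
    have : (n + 1) * (p - 1) + 1 = n * (p - 1) + 1 + (p - 1) := by ring
    rw [this]
    exact h1

theorem comm_final {B : Type*} [CommRing B] {p : ℕ} (hp : p.Prime) {y : B} {n : ℕ}
    (hm : y ^ (n * (p - 1) + 1) = 0) (hy : (1 + y) ^ p = 1) : (p : B) ^ n * y = 0 := by
  have := comm_pow hp hm hy n
  rw [hm] at this
  exact zero_dvd_iff.1 this

theorem ring_final {R : Type*} [Ring R] {p : ℕ} (hp : p.Prime) {Y : R} {n : ℕ}
    (hm : Y ^ (n * (p - 1) + 1) = 0) (hy : (1 + Y) ^ p = 1) : (p : R) ^ n * Y = 0 := by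
  let I : Ideal ℤ[X] := Ideal.span {X ^ (n * (p - 1) + 1), (1 + X) ^ p - 1}
  have h1 : (p : ℤ[X] ⧸ I) ^ n * (Ideal.Quotient.mk I X) = 0 := by
    apply comm_final hp
    · rw [← map_pow, Ideal.Quotient.eq_zero_iff_mem]
      exact Ideal.subset_span (by simp)
    · have : (1 + Ideal.Quotient.mk I X) ^ p - 1 = Ideal.Quotient.mk I ((1 + X) ^ p - 1) := by
        simp
      have h2 : Ideal.Quotient.mk I ((1 + X) ^ p - 1) = 0 := by
        rw [Ideal.Quotient.eq_zero_iff_mem]
        exact Ideal.subset_span (by simp)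
      rw [h2] at this
      exact sub_eq_zero.1 this
  have h2 : (p : ℤ[X]) ^ n * X ∈ I := by
    rw [← Ideal.Quotient.eq_zero_iff_mem]
    simpa using h1
  have h3 : I ≤ RingHom.ker (aeval Y : ℤ[X] →ₐ[ℤ] R).toRingHom := by
    apply Ideal.span_le.2
    rintro f (rfl | rfl)
    · simp [RingHom.mem_ker, hm]
    · simp [RingHom.mem_ker, hy]
  have h4 := h3 h2
  simpa [RingHom.mem_ker] using h4

/-- An endomorphism `X` of an abelian group with `X^p = 1` and `[W, X; n(p-1)+1] = 1` fixes all `p^n`-th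
powers. -/
theorem commGroup_pow_fixed {W : Type*} [CommGroup W] {p : ℕ} (hp : p.Prime) (X : W →* W) (n : ℕ)
    (hXp : ∀ w, X^[p] w = w) (L : ℕ → Set W) (hL0 : ∀ w, w ∈ L 0)
    (hLs : ∀ k w, w ∈ L k → X w * w⁻¹ ∈ L (k + 1)) (hLm : ∀ w ∈ L (n * (p - 1) + 1), w = 1) (w : W) :
    X (w ^ (p ^ n)) = w ^ (p ^ n) := by
  obtain ⟨Xa, hXa⟩ : ∃ Xa : AddMonoid.End (Additive W), ∀ v, Xa v = Additive.ofMul (X v.toMul) :=
    ⟨MonoidHom.toAdditive X, fun _ => rfl⟩
  have hY : ∀ k v, Additive.toMul (((Xa - 1) ^ k) v) ∈ L k := by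
    intro k
    induction k with
    | zero => intro v; exact hL0 _
    | succ k ih =>
      intro v
      rw [pow_succ']
      have := hLs k _ (ih v)
      show Additive.toMul ((Xa - 1) (((Xa - 1) ^ k) v)) ∈ L (k + 1)
      have h2 : (Xa - 1) (((Xa - 1) ^ k) v) = Xa (((Xa - 1) ^ k) v) - ((Xa - 1) ^ k) v := rfl
      rw [h2, hXa]
      simpa [div_eq_mul_inv] using this
  have h1 : (Xa - 1) ^ (n * (p - 1) + 1) = 0 := by
    ext v
    have := hLm _ (hY _ v)
    exact this
  have h2 : (1 + (Xa - 1)) ^ p = 1 := by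
    have h3 : 1 + (Xa - 1) = Xa := by abel
    rw [h3]
    ext v
    have h4 : ∀ k, (Xa ^ k) v = Additive.ofMul (X^[k] v.toMul) := by
      intro k
      induction k with
      | zero => rfl
      | succ k ih =>
        rw [pow_succ']
        show Xa ((Xa ^ k) v) = _
        rw [ih, hXa, Function.iterate_succ_apply']
        rfl
    rw [h4, hXp]
    rfl
  have h3 := ring_final hp h1 h2
  have h4 : ((p : AddMonoid.End (Additive W)) ^ n * (Xa - 1)) (Additive.ofMul w) = 0 := by
    rw [h3]; rfl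
  have h5 : ((p : AddMonoid.End (Additive W)) ^ n * (Xa - 1)) (Additive.ofMul w) =
      (p ^ n) • (Xa (Additive.ofMul w) - Additive.ofMul w) := by
    rw [← Nat.cast_pow]
    rfl
  rw [h5, hXa, smul_sub, sub_eq_zero] at h4
  have h6 : (X w) ^ (p ^ n) = w ^ (p ^ n) := h4
  rw [map_pow, h6]

end Cfsg.Agent.Lib.Helper84
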