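import Cfsg.Agent.Lib.Helper84.FusionAlperin3
import Cfsg.Agent.Lib.Helper84.FusionSeries2
import Cfsg.Agent.Lib.Helper84.PowerRing
import Cfsg.Prelude.Def_PLocal

set_option autoImplicit false

/-! `℧ⁿ(Z(S))` is normal in every saturated fusion system over `S` when `S` has class at most `n(p-1)+1`
(helper84). -/

namespace Cfsg.Agent.Lib.Helper84

open Cfsg Cfsg.FusionSystem

variable {Ω : Type*} [Group Ω] {S : Subgroup Ω}

/-- The maps of `F` preserving `V`. -/
def presSystem (F : FusionSystem S) (V : Subgroup Ω) (hV : S ≤ Subgroup.normalizer (V : Set Ω)) :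
    FusionSystem S where
  Hom P := {φ | φ ∈ F.Hom P ∧ ∀ x : P, (x : Ω) ∈ V ↔ φ x ∈ V}
  le_of_mem h := F.le_of_mem h.1
  injective_of_mem h := F.injective_of_mem h.1
  conj_mem hP hg := ⟨F.conj_mem hP hg, fun x => Subgroup.mem_normalizer_iff.1 (hV hg) x⟩
  comp_mem := by
    rintro P Q φ ψ ⟨hφ, hφ'⟩ ⟨hψ, hψ'⟩ h
    exact ⟨F.comp_mem hφ hψ h, fun x => (hφ' x).trans (hψ' (φ.codRestrict Q h x))⟩
  inv_mem := by
    rintro P φ ⟨hφ, hφ'⟩
    obtain ⟨ψ, hψ, hψ'⟩ := F.inv_mem hφ
    refine ⟨ψ, ⟨hψ, ?_⟩, hψ'⟩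
    rintro ⟨_, x, rfl⟩
    rw [hψ']
    exact (hφ' x).symm

theorem stronglyClosed_of_le_presSystem {F : FusionSystem S} {V : Subgroup Ω}
    {hV : S ≤ Subgroup.normalizer (V : Set Ω)} (hVS : V ≤ S) (h : F ≤ presSystem F V hV) :
    F.StronglyClosed V :=
  ⟨hVS, fun R hR _ hφ x => ((h R hφ).2 x).1 (hR x.2)⟩

theorem normal_of_abelian_stronglyClosed [Finite S] {p : ℕ} [Fact p.Prime] (hS : IsPGroup p S)
    {F : FusionSystem S} (hF : F.IsSaturated p) {Q : Subgroup Ω} (hQsc : F.StronglyClosed Q)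
    (hQc : ∀ a ∈ Q, ∀ b ∈ Q, a * b = b * a) : F.IsNormal Q := by
  rw [normal_iff_series hS F hF]
  refine ⟨1, ![⊥, Q], rfl, rfl, ?_, ?_⟩
  · intro i j hij
    fin_cases i <;> fin_cases j <;> simp_all
  · intro i
    fin_cases i
    refine ⟨hQsc, ?_⟩
    show ⁅Q, Q⁆ ≤ ⊥
    rw [le_bot_iff, Subgroup.commutator_eq_bot_iff_le_centralizer]
    intro x hx
    rw [Subgroup.mem_centralizer_iff]
    intro y hy
    exact hQc y hy x hx

/-- In a `p`-group, an element outside `P` has a power outside `P` whose `p`-th power lies in `P`. -/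
theorem exists_pow_p_mem {p : ℕ} {P : Subgroup Ω} {g₀ : Ω} (hg₀ : ∃ k : ℕ, g₀ ^ p ^ k = 1)
    (hP : g₀ ∉ P) : ∃ j : ℕ, g₀ ^ j ∉ P ∧ (g₀ ^ j) ^ p ∈ P := by
  classical
  have hex : ∃ k : ℕ, g₀ ^ p ^ k ∈ P := by
    obtain ⟨k, hk⟩ := hg₀
    exact ⟨k, hk ▸ P.one_mem⟩
  have hne : Nat.find hex ≠ 0 := by
    intro h
    have := Nat.find_spec hex
    rw [h] at this
    simp at this
    exact hP this
  obtain ⟨j, hj⟩ : ∃ j, Nat.find hex = j + 1 := ⟨Nat.find hex - 1, by omega⟩
  refine ⟨p ^ j, Nat.find_min hex (by omega), ?_⟩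
  have := Nat.find_spec hex
  rw [hj, pow_succ, pow_mul] at this
  exact this

/-- Automorphisms fixing all `q`-th powers of central elements. -/
def agemoFix (P : Type*) [Group P] (q : ℕ) : Subgroup (MulAut P) where
  carrier := {α | ∀ w ∈ Subgroup.center P, α (w ^ q) = w ^ q}
  one_mem' := fun _ _ => rfl
  mul_mem' := by
    intro α β hα hβ w hw
    rw [MulAut.mul_apply, hβ w hw, hα w hw]
  inv_mem' := by
    intro α hα w hw
    have := congrArg (fun y => α⁻¹ y) (hα w hw)
    simp only [MulAut.inv_apply_self] at this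
    exact this.symm

theorem map_mem_center {P : Type*} [Group P] (β : MulAut P) {w : P} (hw : w ∈ Subgroup.center P) :
    β w ∈ Subgroup.center P := by
  rw [Subgroup.mem_center_iff] at hw ⊢
  intro y
  have := congrArg β (hw (β⁻¹ y))
  simpa using this

theorem agemoFix_normal (P : Type*) [Group P] (q : ℕ) (β : MulAut P) :
    β ∈ Subgroup.normalizer (agemoFix P q : Set (MulAut P)) := by
  have key : ∀ β : MulAut P, ∀ α ∈ agemoFix P q, β * α * β⁻¹ ∈ agemoFix P q := by
    intro β α hα w hw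
    have h1 := hα (β⁻¹ w) (map_mem_center β⁻¹ hw)
    simp only [MulAut.mul_apply, map_pow] at h1 ⊢
    rw [← map_pow, h1, map_pow, MulAut.apply_inv_self]
  apply mem_normalizer_of_conj_mem (key β)
  intro α hα
  simpa using key β⁻¹ α hα

open scoped IsMulCommutative in
/-- The key computation. -/
theorem conjAut_mem_agemoFix {p : ℕ} [hp : Fact p.Prime] {P : Subgroup Ω} (hPS : P ≤ S) (n : ℕ)
    (hcl : Subgroup.lowerCentralSeries S (n * (p - 1) + 1) = ⊥) {g : Ω} (hgS : g ∈ S)
    (hgN : g ∈ Subgroup.normalizer (P : Set Ω)) (hgp : g ^ p ∈ P) :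
    conjAut P g hgN ∈ agemoFix P (p ^ n) := by
  intro w hw
  obtain ⟨X, hX⟩ : ∃ X : Subgroup.center P →* Subgroup.center P,
      ∀ u, ((X u : Subgroup.center P) : P) = conjAut P g hgN u :=
    ⟨((conjAut P g hgN).toMonoidHom.comp (Subgroup.center P).subtype).codRestrict _
      (fun u => map_mem_center (conjAut P g hgN) u.2), fun _ => rfl⟩
  have hiter : ∀ k u, ((X^[k] u : Subgroup.center P) : P) = ((conjAut P g hgN) ^ k) u := by
    intro k
    induction k with
    | zero => intro u; rfl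
    | succ k ih =>
      intro u
      rw [Function.iterate_succ_apply', hX, ih, pow_succ', MulAut.mul_apply]
  have h := commGroup_pow_fixed hp.out X n
    (by
      intro u
      apply Subtype.ext
      rw [hiter]
      apply Subtype.ext
      rw [autInducedBy_pow (g := g) (fun _ => rfl)]
      have := (Subgroup.mem_center_iff.1 u.2) ⟨g ^ p, hgp⟩
      have h2 : g ^ p * ((u : P) : Ω) = ((u : P) : Ω) * g ^ p := congrArg Subtype.val this
      rw [h2]
      simp)
    (fun k => {u | (((u : Subgroup.center P) : P) : Ω) ∈ S.lowerCentralSeries k})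
    (fun u => hPS (u : P).2)
    (by
      intro k u hu
      show ((((X u * u⁻¹ : Subgroup.center P) : Subgroup.center P) : P) : Ω) ∈
        S.lowerCentralSeries (k + 1)
      have h1 : ((((X u * u⁻¹ : Subgroup.center P) : Subgroup.center P) : P) : Ω) =
          (((u : P) : Ω) * g * (((u : P) : Ω))⁻¹ * g⁻¹)⁻¹ := by
        show (((X u : Subgroup.center P) : P) : Ω) * (((u : P) : Ω))⁻¹ = _
        rw [hX, conjAut_apply]
        simp [mul_assoc]
      rw [h1]
      have h2 := Subgroup.commutator_mem_commutator hu hgS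
      rw [commutatorElement_def] at h2
      exact Subgroup.inv_mem _ h2)
    (by
      intro u hu
      have hu' : (((u : Subgroup.center P) : P) : Ω) ∈ S.lowerCentralSeries (n * (p - 1) + 1) := hu
      rw [hcl, Subgroup.mem_bot] at hu'
      exact Subtype.ext (Subtype.ext hu'))
    ⟨w, hw⟩
  have h2 := congrArg (fun u : Subgroup.center P => (u : P)) h
  simp only [hX] at h2
  exact h2

theorem agemo_center_normal [Finite S] {p : ℕ} [Fact p.Prime] (hS : IsPGroup p S)
    (F : FusionSystem S) (hF : F.IsSaturated p) (n : ℕ)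
    (hcl : Subgroup.lowerCentralSeries S (n * (p - 1) + 1) = ⊥) :
    F.IsNormal (powerClosure p n (S ⊓ Subgroup.centralizer (S : Set Ω))) := by
  obtain ⟨V, hVdef⟩ : ∃ V, V = powerClosure p n (S ⊓ Subgroup.centralizer (S : Set Ω)) := ⟨_, rfl⟩
  rw [← hVdef]
  have hVZ : V ≤ S ⊓ Subgroup.centralizer (S : Set Ω) := by
    rw [hVdef]
    unfold powerClosure
    rw [Subgroup.closure_le]
    rintro _ ⟨x, hx, rfl⟩
    exact Subgroup.pow_mem _ hx _
  have hVS : V ≤ S := hVZ.trans inf_le_left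
  have hVc : ∀ v ∈ V, ∀ s ∈ S, s * v = v * s := fun v hv s hs =>
    (Subgroup.mem_centralizer_iff.1 (hVZ hv).2) s hs
  have hVN : S ≤ Subgroup.normalizer (V : Set Ω) := by
    intro s hs
    apply mem_normalizer_of_conj_mem
    · intro v hv
      rw [hVc v hv s hs]
      simpa using hv
    · intro v hv
      rw [mul_assoc, ← hVc v hv s hs]
      simpa using hv
  -- a general principle: an automorphism of `P ≥ Z(S)` sending `z^q` into `V` preserves `V`
  have hpres : ∀ (P : Subgroup Ω) (hZP : S ⊓ Subgroup.centralizer (S : Set Ω) ≤ P) (α : MulAut P),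
      (∀ z (hz : z ∈ S ⊓ Subgroup.centralizer (S : Set Ω)),
        ((α (⟨z, hZP hz⟩ ^ p ^ n) : P) : Ω) ∈ V) → ∀ x : P, (x : Ω) ∈ V → ((α x : P) : Ω) ∈ V := by
    intro P hZP α h x hx
    have : ∀ y ∈ V, ∀ hy : y ∈ P, ((α ⟨y, hy⟩ : P) : Ω) ∈ V := by
      intro y hy
      rw [hVdef] at hy
      unfold powerClosure at hy
      induction hy using Subgroup.closure_induction with
      | mem y hy =>
        obtain ⟨z, hz, rfl⟩ := hy
        intro hy'
        exact h z hz
      | one =>
        intro _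
        have : (⟨1, P.one_mem⟩ : P) = 1 := rfl
        rw [this, map_one]
        exact V.one_mem
      | mul a b ha hb iha ihb =>
        intro _
        have haP : a ∈ P := hZP (hVZ (hVdef ▸ ha))
        have hbP : b ∈ P := hZP (hVZ (hVdef ▸ hb))
        have : (⟨a * b, ‹_›⟩ : P) = ⟨a, haP⟩ * ⟨b, hbP⟩ := rfl
        rw [this, map_mul]
        exact V.mul_mem (iha haP) (ihb hbP)
      | inv a ha iha =>
        intro _
        have haP : a ∈ P := hZP (hVZ (hVdef ▸ ha))
        have : (⟨a⁻¹, ‹_›⟩ : P) = ⟨a, haP⟩⁻¹ := rfl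
        rw [this, map_inv]
        exact V.inv_mem (iha haP)
    exact this x hx x.2
  have hiff : ∀ (P : Subgroup Ω) (α : MulAut P),
      (∀ β : MulAut P, (β = α ∨ β = α⁻¹) → ∀ x : P, (x : Ω) ∈ V → ((β x : P) : Ω) ∈ V) →
      ∀ x : P, (x : Ω) ∈ V ↔ ((α x : P) : Ω) ∈ V := by
    intro P α h x
    refine ⟨h α (Or.inl rfl) x, fun hx => ?_⟩
    have := h α⁻¹ (Or.inr rfl) _ hx
    rwa [MulAut.inv_apply_self] at this
  have hgen : ∀ z ∈ S ⊓ Subgroup.centralizer (S : Set Ω), z ^ p ^ n ∈ V := by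
    intro z hz
    rw [hVdef]
    exact Subgroup.subset_closure ⟨z, hz, rfl⟩
  have hle : F ≤ presSystem F V hVN := by
    apply alperin_ext hS F hF
    intro P hP
    by_cases hPeq : P = S
    · subst hPeq
      refine le_trans ?_ le_sup_left
      intro α hα
      rw [mem_autGroup_iff _ le_rfl]
      refine ⟨(mem_autGroup_iff F le_rfl α).1 hα, ?_⟩
      apply hiff
      intro β _
      apply hpres P inf_le_left β
      intro z hz
      rw [map_pow]
      apply hgen
      refine ⟨(β _).2, ?_⟩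
      show _ ∈ Subgroup.centralizer (P : Set Ω)
      rw [Subgroup.mem_centralizer_iff]
      intro s hs
      have h1 := (Subgroup.mem_centralizer_iff.1 hz.2) (β⁻¹ ⟨s, hs⟩ : P) (β⁻¹ ⟨s, hs⟩ : P).2
      have h2 : (β⁻¹ ⟨s, hs⟩ : P) * ⟨z, hz.1⟩ = ⟨z, hz.1⟩ * (β⁻¹ ⟨s, hs⟩ : P) := Subtype.ext h1
      have h3 := congrArg (fun y : P => ((β y : P) : Ω)) h2
      simpa using h3
    · have hess : F.IsEssential p P := hP.resolve_left hPeq
      have hPS : P ≤ S := hess.1.1
      have hPlt : P < S := lt_of_le_of_ne hPS hPeq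
      obtain ⟨-, haut, hrec⟩ := sat_fullyNormalized hS hF hess.2.1
      have hZP : S ⊓ Subgroup.centralizer (S : Set Ω) ≤ P := by
        intro z hz
        apply hess.1.2 P (isConj_refl F hPS)
        exact ⟨hz.1, Subgroup.centralizer_le (show (P : Set Ω) ⊆ S from hPS) hz.2⟩
      obtain ⟨g₀, hg₀S, hg₀P, hg₀N⟩ := exists_mem_normalizer_not_mem hS hPlt
      obtain ⟨j, hj1, hj2⟩ := exists_pow_p_mem (p := p) (by
        obtain ⟨k, hk⟩ := hS ⟨g₀, hg₀S⟩
        exact ⟨k, congrArg Subtype.val hk⟩) hg₀P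
      have hgS : g₀ ^ j ∈ S := S.pow_mem hg₀S j
      have hgN : g₀ ^ j ∈ Subgroup.normalizer (P : Set Ω) := Subgroup.pow_mem _ hg₀N j
      have hfr := frattini_ext hS hrec haut (C := F.autGroup P ⊓ agemoFix P (p ^ n)) inf_le_left
        (by
          intro β hβ
          have h1 := agemoFix_normal P (p ^ n) β
          rw [Subgroup.mem_normalizer_iff] at h1 ⊢
          intro γ
          constructor
          · rintro ⟨h2, h3⟩
            exact ⟨Subgroup.mul_mem _ (Subgroup.mul_mem _ hβ h2) (Subgroup.inv_mem _ hβ),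
              (h1 γ).1 h3⟩
          · rintro ⟨h2, h3⟩
            refine ⟨?_, (h1 γ).2 h3⟩
            have := Subgroup.mul_mem _ (Subgroup.mul_mem _ (Subgroup.inv_mem _ hβ) h2) hβ
            simpa [mul_assoc] using this)
        hgS hgN hj1
        ⟨autInducedBy_le_autGroup F hPS (conjAut_mem_autInducedBy hgN hgS),
          conjAut_mem_agemoFix hPS n hcl hgS hgN hj2⟩
      refine hfr.trans (sup_le_sup_right ?_ _)
      rintro α ⟨hα1, hα2⟩
      rw [mem_autGroup_iff _ hPS]
      refine ⟨(mem_autGroup_iff F hPS α).1 hα1, ?_⟩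
      apply hiff
      intro β hβ
      have hβ2 : β ∈ agemoFix P (p ^ n) := by
        rcases hβ with rfl | rfl
        · exact hα2
        · exact Subgroup.inv_mem _ hα2
      apply hpres P hZP β
      intro z hz
      have hzc : (⟨z, hZP hz⟩ : P) ∈ Subgroup.center P := by
        rw [Subgroup.mem_center_iff]
        intro y
        exact Subtype.ext ((Subgroup.mem_centralizer_iff.1 hz.2) y (hPS y.2))
      rw [hβ2 _ hzc]
      exact hgen z hz
  apply normal_of_abelian_stronglyClosed hS hF (stronglyClosed_of_le_presSystem hVS hle)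
  intro a ha b hb
  exact hVc b hb a (hVS ha)

end Cfsg.Agent.Lib.Helper84
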