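import Cfsg.Agent.Lib.Helper85.FusFactor2
import Cfsg.Agent.Lib.Helper84.FusionBasic

set_option autoImplicit false

/-! A criterion for the image of a subgroup to be normal in a factor system (helper84). -/

namespace Cfsg.Agent.Lib.Helper84

open Cfsg Cfsg.FusionSystem

variable {Ω : Type*} [Group Ω] {S : Subgroup Ω} {Ω' : Type*} [Group Ω'] {S' : Subgroup Ω'}

theorem factor_normal_of_lift [Finite S] (F : FusionSystem S) {S₀ : Subgroup Ω}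
    (hS₀ : F.StronglyClosed S₀) (θ : S →* Ω') (E : FusionSystem S') (hE : F.IsFactorSystem S₀ θ E)
    (W₁ : Subgroup Ω) (hW₁ : W₁ ≤ S)
    (H : ∀ (P₁ Q₁ : Subgroup Ω) (h1 : P₁ ≤ Q₁) (h2 : W₁ ≤ Q₁), Q₁ ≤ P₁ ⊔ W₁ → S₀ ≤ P₁ →
      ∀ φ ∈ F.Hom P₁, ∃ ψ ∈ F.Hom Q₁,
        (∀ a : P₁, (φ a)⁻¹ * ψ (Subgroup.inclusion h1 a) ∈ S₀) ∧
        (∀ w : W₁, ψ (Subgroup.inclusion h2 w) ∈ W₁)) :
    E.IsNormal (imageAlong θ W₁) := by
  obtain ⟨hS₀S, hker, hrange, hHom⟩ := hE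
  set W' := imageAlong θ W₁ with hW'
  have hW'S' : W' ≤ S' := by
    rintro _ ⟨x, -, rfl⟩
    rw [← hrange]; exact ⟨x, rfl⟩
  refine ⟨hW'S', ?_⟩
  intro P' φ' hφ'
  obtain ⟨hP'S', φ, hφ, hind⟩ := (hHom P' φ').1 hφ'
  have hQ'S' : P' ⊔ W' ≤ S' := sup_le hP'S' hW'S'
  have hS₀P₁ : S₀ ≤ preimageAlong θ P' := by
    intro x hx
    refine Helper85.mem_preimageAlong.mpr ⟨hS₀S hx, ?_⟩
    rw [(hker ⟨x, hS₀S hx⟩).mpr hx]; exact P'.one_mem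
  have h1 : preimageAlong θ P' ≤ preimageAlong θ (P' ⊔ W') := by
    intro x hx
    obtain ⟨h, hx'⟩ := Helper85.mem_preimageAlong.1 hx
    exact Helper85.mem_preimageAlong.2 ⟨h, (le_sup_left : P' ≤ P' ⊔ W') hx'⟩
  have h2 : W₁ ≤ preimageAlong θ (P' ⊔ W') := by
    intro x hx
    exact Helper85.mem_preimageAlong.2 ⟨hW₁ hx, (le_sup_right : W' ≤ P' ⊔ W') ⟨⟨x, hW₁ hx⟩, hx, rfl⟩⟩
  have h3 : preimageAlong θ (P' ⊔ W') ≤ preimageAlong θ P' ⊔ W₁ := by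
    have hM : P' ⊔ W' ≤ imageAlong θ (preimageAlong θ P' ⊔ W₁) := by
      apply sup_le
      · intro y hy
        have : y ∈ θ.range := hrange ▸ hP'S' hy
        obtain ⟨s, rfl⟩ := this
        exact ⟨s, (le_sup_left : _ ≤ preimageAlong θ P' ⊔ W₁)
          (Helper85.mem_preimageAlong.2 ⟨s.2, hy⟩), rfl⟩
      · rintro _ ⟨x, hx, rfl⟩
        exact ⟨x, (le_sup_right : _ ≤ preimageAlong θ P' ⊔ W₁) hx, rfl⟩
    intro x hx
    obtain ⟨h, hx'⟩ := Helper85.mem_preimageAlong.1 hx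
    obtain ⟨y, hy, hyx⟩ := hM hx'
    have hk : θ (y⁻¹ * ⟨x, h⟩) = 1 := by rw [map_mul, map_inv, hyx, inv_mul_cancel]
    have hk' := (le_sup_left : _ ≤ preimageAlong θ P' ⊔ W₁) (hS₀P₁ ((hker _).1 hk))
    have hy' : (y : Ω) ∈ preimageAlong θ P' ⊔ W₁ := hy
    have := Subgroup.mul_mem _ hy' hk'
    simpa using this
  obtain ⟨ψ, hψ, hψ1, hψ2⟩ := H _ _ h1 h2 h3 hS₀P₁ φ hφ
  obtain ⟨ψ', hψ'⟩ := Helper85.exists_induced F hS₀ θ hker (hrange ▸ hQ'S') hψ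
  have hψ'E : ψ' ∈ E.Hom (P' ⊔ W') := (hHom _ ψ').2 ⟨hQ'S', ψ, hψ, hψ'⟩
  obtain ⟨a1, a2, a3, a4⟩ := hind
  obtain ⟨b1, b2, b3, b4⟩ := hψ'
  refine ⟨ψ', hψ'E, ?_, ?_⟩
  · intro x
    obtain ⟨a, ha⟩ := Helper85.preimageMap_surjective θ (hrange ▸ hP'S') x
    have e1 : x = ⟨θ ⟨a, a1 a.2⟩, a3 a⟩ := by rw [← ha]; rfl
    have e2 : Subgroup.inclusion (le_sup_left : P' ≤ P' ⊔ W') x =
        ⟨θ ⟨(Subgroup.inclusion h1 a : preimageAlong θ (P' ⊔ W')), b1 (Subgroup.inclusion h1 a).2⟩,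
          b3 (Subgroup.inclusion h1 a)⟩ := by
      rw [e1]; rfl
    rw [e2, b4, e1, a4]
    have h5 := (hker ((⟨φ a, a2 a⟩ : S)⁻¹ * ⟨ψ (Subgroup.inclusion h1 a), b2 _⟩)).2 (hψ1 a)
    rw [map_mul, map_inv, inv_mul_eq_one] at h5
    exact h5.symm
  · have hfin : Finite W' := by
      have : Finite S' := by
        rw [← hrange]
        exact Finite.of_surjective θ.rangeRestrict θ.rangeRestrict_surjective
      exact finite_of_le hW'S'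
    have hle : (W'.subgroupOf (P' ⊔ W')).map ψ' ≤ W' := by
      rintro _ ⟨y, hy, rfl⟩
      obtain ⟨w, hw, hwy⟩ := hy
      have e2 : y = ⟨θ ⟨(Subgroup.inclusion h2 ⟨w, hw⟩ : preimageAlong θ (P' ⊔ W')),
          b1 (Subgroup.inclusion h2 ⟨w, hw⟩).2⟩, b3 (Subgroup.inclusion h2 ⟨w, hw⟩)⟩ :=
        Subtype.ext hwy.symm
      rw [e2, b4]
      exact ⟨_, hψ2 ⟨w, hw⟩, rfl⟩
    apply Subgroup.eq_of_le_of_card_ge hle
    rw [Subgroup.card_map_of_injective (E.injective_of_mem hψ'E),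
      Nat.card_congr (Subgroup.subgroupOfEquivOfLe (le_sup_right : W' ≤ P' ⊔ W')).toEquiv]

end Cfsg.Agent.Lib.Helper84
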