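import Cfsg.Agent.Lib.Helper84.FusionKNorm3

set_option autoImplicit false

/-! Local versions (no global saturation) of the `K`-normalizer lemmas (helper84). -/

namespace Cfsg.Agent.Lib.Helper84

open Cfsg Cfsg.FusionSystem Cfsg.Agent.Lib.Helper85

variable {Ω : Type*} [Group Ω] {S : Subgroup Ω}

/-- `R` has a fully automized receptive conjugate. -/
def Good (F : FusionSystem S) (p : ℕ) (R : Subgroup Ω) : Prop :=
  ∃ Q, F.IsConj R Q ∧ F.IsFullyAutomized p Q ∧ F.IsReceptive Q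

theorem Good.of_isConj {F : FusionSystem S} {p : ℕ} {R R' : Subgroup Ω} (h : Good F p R)
    (hc : F.IsConj R R') : Good F p R' := by
  obtain ⟨Q, hQ, h1, h2⟩ := h
  exact ⟨Q, isConj_trans (isConj_symm hc) hQ, h1, h2⟩

/-- Every pair `(Q, K)` has a conjugate which is "fully normalized". -/
theorem exists_KGood_of_good [Finite S] {p : ℕ} [Fact p.Prime] (hS : IsPGroup p S)
    {F : FusionSystem S} {Q : Subgroup Ω} (hgood : Good F p Q)
    (K : Subgroup (MulAut Q)) :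
    ∃ (P : Subgroup Ω) (e : Q ≃* P), Mor F e.toMonoidHom ∧ KGood F p P (trK e K) := by
  obtain ⟨P, hconj, ⟨hPS, R, hR⟩, hrec⟩ := hgood
  obtain ⟨e₀, he₀⟩ := (isConj_iff F).1 hconj
  have hfin : Finite (MulAut P) := finite_mulAut_of_le hPS
  obtain ⟨T₀, -, hT₀le, hT₀⟩ := exists_sylIn_ge (p := p)
    (bot_le : (⊥ : Subgroup (MulAut P)) ≤ F.autGroup P ⊓ trK e₀ K) IsPGroup.of_bot
  have hT₀p : IsPGroup p T₀ := hT₀.isPGroup hT₀le
  obtain ⟨a, ha, hconj'⟩ := exists_conj_le_of_sylow R hR (hT₀le.trans inf_le_left) hT₀p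
  have hae : Mor F (e₀.trans a).toMonoidHom := ((mem_autGroup_iff F hPS a).1 ha).comp he₀
  refine ⟨P, e₀.trans a, hae, hrec, ?_⟩
  have htr : trK (e₀.trans a) K = (trK e₀ K).map (MulAut.conj a).toMonoidHom := by
    rw [← trK_trans]
    rfl
  have hA : F.autGroup P = (F.autGroup P).map (MulAut.conj a).toMonoidHom := by
    ext β
    constructor
    · intro hβ
      refine ⟨a⁻¹ * β * a, Subgroup.mul_mem _ (Subgroup.mul_mem _ (Subgroup.inv_mem _ ha) hβ) ha, ?_⟩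
      simp [MulAut.conj_apply, mul_assoc]
    · rintro ⟨γ, hγ, rfl⟩
      exact Subgroup.mul_mem _ (Subgroup.mul_mem _ ha hγ) (Subgroup.inv_mem _ ha)
  have hinf : F.autGroup P ⊓ trK (e₀.trans a) K =
      (F.autGroup P ⊓ trK e₀ K).map (MulAut.conj a).toMonoidHom := by
    rw [Subgroup.map_inf _ _ _ (MulAut.conj a).injective, ← hA, htr]
  apply sylIn_of_card_le (inf_le_inf_right _ (autInducedBy_le_autGroup F hPS))
    ((isPGroup_autInducedBy hS P).to_le inf_le_left)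
  rw [hinf, card_map_conj, ← (sylIn_iff_card hT₀le).1 hT₀, ← card_map_conj T₀ a]
  apply Subgroup.card_le_of_le
  rintro _ ⟨u, hu, rfl⟩
  refine ⟨hconj' u hu, ?_⟩
  rw [htr]
  exact ⟨u, (hT₀le hu).2, rfl⟩

/-- Goodness is inherited by the image under a map defined on `Q N_S^K(Q)`. -/
theorem KGood.transfer_of_good [Finite S] {p : ℕ} [Fact p.Prime] (hS : IsPGroup p S)
    {F : FusionSystem S} {Q Q' N : Subgroup Ω} {K : Subgroup (MulAut Q)}
    (h : KGood F p Q K) (hgood : Good F p Q) (e : Q ≃* Q') (hQN : Q ≤ N) (hN : normK S Q K ≤ N) {ψ : N →* Ω}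
    (hψ : ψ ∈ F.Hom N) (hag : ∀ x : Q, ψ (Subgroup.inclusion hQN x) = e x) :
    KGood F p Q' (trK e K) := by
  obtain ⟨hrec, hsyl⟩ := h
  have hQS : Q ≤ S := hrec.1
  have he : Mor F e.toMonoidHom := by
    have : Q'.subtype.comp e.toMonoidHom = ψ.comp (Subgroup.inclusion hQN) := by
      ext x
      exact (hag x).symm
    unfold Mor
    rw [this]
    exact restrict_mem F hψ hQN
  have hQ'S : Q' ≤ S := he.symm.le_left
  have hfin : Finite (MulAut Q) := finite_mulAut_of_le hQS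
  have hfin' : Finite (MulAut Q') := finite_mulAut_of_le hQ'S
  have hmap : (Q.subgroupOf N).map ψ = Q' := by
    apply map_eq_of_agree e ψ hQN
    intro x hQ hN'
    exact hag ⟨x, hQ⟩
  constructor
  · -- receptive
    obtain ⟨P₀, hP₀, h₁, h₂⟩ := hgood
    apply receptive_of_fullyCentralized hS F h₁ h₂
      (isConj_trans (isConj_symm ((isConj_iff F).2 ⟨e, he⟩)) hP₀)
    refine ⟨hQ'S, fun R hR => ?_⟩
    have hQR : F.IsConj Q R := isConj_trans ((isConj_iff F).2 ⟨e, he⟩) hR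
    refine ((receptive_fullyCentralized F hrec).2 R hQR).trans ?_
    have hCN : centralizerIn S Q ≤ N := (centralizerIn_le_normK S Q K).trans hN
    have : Finite (centralizerIn S Q') := finite_of_le (centralizerIn_le S Q')
    apply Nat.card_le_card_of_injective
      (fun c : centralizerIn S Q => (⟨ψ ⟨c, hCN c.2⟩,
        map_mem_centralizerIn F hψ hmap ⟨c, hCN c.2⟩ c.2.2⟩ : centralizerIn S Q'))
    intro c c' hcc
    have h1 : ψ ⟨c, hCN c.2⟩ = ψ ⟨c', hCN c'.2⟩ := congrArg Subtype.val hcc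
    have h2 := F.injective_of_mem hψ h1
    exact Subtype.ext (congrArg (fun z : N => (z : Ω)) h2)
  · apply sylIn_of_card_le (inf_le_inf_right _ (autInducedBy_le_autGroup F hQ'S))
      ((isPGroup_autInducedBy hS Q').to_le inf_le_left)
    rw [← trK_autGroup he, ← trK_inf, card_trK,
      ← (sylIn_iff_card (inf_le_inf_right _ (autInducedBy_le_autGroup F hQS))).1 hsyl,
      ← card_trK e]
    apply Subgroup.card_le_of_le
    rintro _ ⟨α, ⟨hα1, hα2⟩, rfl⟩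
    refine ⟨?_, congr_mem_trK e hα2⟩
    obtain ⟨g, hg, hg'⟩ := (mem_autInducedBy_iff S Q α).1 hα1
    have hgK : g ∈ normK S Q K := ⟨hg, α, hα2, hg'⟩
    apply (mem_autInducedBy_iff S Q' _).2
    refine ⟨ψ ⟨g, hN hgK⟩, (F.le_of_mem hψ).2 _, fun y => ?_⟩
    show ((MulAut.congr e α y : Q') : Ω) = _
    rw [congr_apply_apply, ← hag]
    have h1 : Subgroup.inclusion hQN (α (e.symm y)) =
        ⟨g, hN hgK⟩ * Subgroup.inclusion hQN (e.symm y) * ⟨g, hN hgK⟩⁻¹ := by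
      ext
      exact hg' _
    rw [h1, map_mul, map_mul, map_inv, hag, MulEquiv.apply_symm_apply]

theorem knorm_exists_good_of_good [Finite S] {p : ℕ} [Fact p.Prime] (hS : IsPGroup p S)
    {F : FusionSystem S} {Q : Subgroup Ω} {K : Subgroup (MulAut Q)} (hQS : Q ≤ S)
    (hQ : ∀ (Q₁ : Subgroup Ω) (e : Q₁ ≃* Q), Mor F e.toMonoidHom →
      ∃ χ ∈ F.autGroup Q ⊓ K, ∃ N : Subgroup Ω, Q₁ ≤ N ∧ normK S Q₁ (trK e.symm K) ≤ N ∧
        ∃ ψ ∈ F.Hom N, ∀ (x : Ω) (hP : x ∈ Q₁) (hN : x ∈ N),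
          ψ ⟨x, hN⟩ = ((χ (e ⟨x, hP⟩) : Q) : Ω))
    (E : FusionSystem (normK S Q K))
    (hE : ∀ (P : Subgroup Ω) (φ : P →* Ω), φ ∈ E.Hom P ↔ φ ∈ normKHom F Q K P)
    {P : Subgroup Ω} (hP : P ≤ normK S Q K) (hgood : Good F p (P ⊔ Q)) :
    ∃ P', E.IsConj P P' ∧ KGood F p (P' ⊔ Q) (flagK le_sup_right P' K) := by
  have hXS : P ⊔ Q ≤ S := sup_le (hP.trans (normK_le' S Q K)) hQS
  obtain ⟨Y, e, he, hY⟩ := exists_KGood_of_good hS hgood (flagK le_sup_right P K)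
  have hYS : Y ≤ S := hY.1.1
  obtain ⟨Q₁, eQ, heQ_apply, heQ⟩ : ∃ (Q₁ : Subgroup Ω) (eQ : Q ≃* Q₁),
      (∀ x : Q, ((eQ x : Q₁) : Ω) = ((e (Subgroup.inclusion le_sup_right x) : Y) : Ω)) ∧
        Mor F eQ.toMonoidHom :=
    ⟨_, restrictEquiv (Y.subtype.comp e.toMonoidHom) (F.injective_of_mem he) le_sup_right rfl,
      fun _ => rfl, mor_restrictEquiv F he le_sup_right rfl⟩
  have hQ₁Y : Q₁ ≤ Y := by
    intro y hy
    have := heQ_apply (eQ.symm ⟨y, hy⟩)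
    rw [MulEquiv.apply_symm_apply] at this
    have h2 : y = ((e (Subgroup.inclusion le_sup_right (eQ.symm ⟨y, hy⟩)) : Y) : Ω) := this
    rw [h2]
    exact (e _).2
  obtain ⟨χ, hχ, N₁, hQ₁N, hNN, ψ, hψ, hψ'⟩ := hQ Q₁ eQ.symm heQ.symm
  rw [MulEquiv.symm_symm] at hNN
  have hYN : Y ≤ N₁ := by
    intro y hy
    have key : ∀ x : ↥(P ⊔ Q), (Y.subtype.comp e.toMonoidHom) x ∈ N₁ :=
      sup_induction_hom _ _
        (fun x => hNN (map_mem_normK (S := S) (Y.subtype.comp e.toMonoidHom) le_sup_right eQ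
          (fun x => (heQ_apply x).symm) (Subgroup.inclusion le_sup_left x) (hP x.2)
          (he.apply_mem _)))
        (fun x => hQ₁N (by
          show ((e (Subgroup.inclusion le_sup_right x) : Y) : Ω) ∈ Q₁
          rw [← heQ_apply]
          exact (eQ x).2))
    have := key (e.symm ⟨y, hy⟩)
    simpa using this
  have hNY : normK S Y (trK e (flagK le_sup_right P K)) ≤ normK S Q₁ (trK eQ K) := by
    rintro g ⟨hg, β, hβ, hβ'⟩
    obtain ⟨α, ⟨-, κ, hκ, hκ'⟩, rfl⟩ := hβ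
    refine ⟨hg, _, congr_mem_trK eQ hκ, fun y => ?_⟩
    rw [← hβ' ⟨y, hQ₁Y y.2⟩]
    show ((MulAut.congr eQ κ y : Q₁) : Ω) = ((MulAut.congr e α ⟨y, hQ₁Y y.2⟩ : Y) : Ω)
    have h1 : e.symm ⟨y, hQ₁Y y.2⟩ = Subgroup.inclusion le_sup_right (eQ.symm y) := by
      rw [MulEquiv.symm_apply_eq]
      apply Subtype.ext
      rw [← heQ_apply, MulEquiv.apply_symm_apply]
    rw [congr_apply_apply, congr_apply_apply, heQ_apply, ← hκ', h1]
  obtain ⟨θ, hθ, hθ'⟩ : ∃ θ ∈ F.Hom (P ⊔ Q), ∀ x, θ x = ψ ⟨(e x : Y), hYN (e x).2⟩ :=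
    ⟨ψ.comp ((Subgroup.inclusion hYN).comp e.toMonoidHom),
      Mor.comp_hom hψ ((mor_inclusion F hYN hYS).comp he), fun _ => rfl⟩
  have hθinj := F.injective_of_mem hθ
  have hθQ : ∀ x : Q, θ (Subgroup.inclusion le_sup_right x) = ((χ x : Q) : Ω) := by
    intro x
    have hx1 : ((e (Subgroup.inclusion le_sup_right x) : Y) : Ω) ∈ Q₁ := by
      rw [← heQ_apply]; exact (eQ x).2
    rw [hθ', hψ' _ hx1]
    have : (⟨((e (Subgroup.inclusion le_sup_right x) : Y) : Ω), hx1⟩ : Q₁) = eQ x :=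
      Subtype.ext (heQ_apply x).symm
    rw [this, MulEquiv.symm_apply_apply]
  obtain ⟨P', hP'⟩ : ∃ P', P' = (P.subgroupOf (P ⊔ Q)).map θ := ⟨_, rfl⟩
  have hθP : ∀ x : ↥(P ⊔ Q), (x : Ω) ∈ P ↔ θ x ∈ P' := by
    intro x
    rw [hP']
    constructor
    · intro hx
      exact ⟨x, hx, rfl⟩
    · rintro ⟨x', hx', heq⟩
      rw [← hθinj heq]
      exact hx'
  have hrange : θ.range = P' ⊔ Q := by
    apply le_antisymm
    · rintro _ ⟨x, rfl⟩
      exact sup_induction_hom θ _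
        (fun x => (le_sup_left : P' ≤ P' ⊔ Q) ((hθP _).1 x.2))
        (fun x => by rw [hθQ]; exact (le_sup_right : Q ≤ P' ⊔ Q) (χ x).2) x
    · apply sup_le
      · rw [hP']
        rintro _ ⟨x, -, rfl⟩
        exact ⟨x, rfl⟩
      · intro y hy
        exact ⟨Subgroup.inclusion le_sup_right (χ⁻¹ ⟨y, hy⟩), by rw [hθQ, MulAut.apply_inv_self]⟩
  refine ⟨P', ⟨θ.comp (Subgroup.inclusion le_sup_left), (hE _ _).2 ⟨hP, fun x => ?_, θ, hθ,
    fun _ => rfl, χ, hχ.2, hθQ⟩, ?_⟩, ?_⟩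
  · have := map_mem_normK (S := S) θ le_sup_right χ hθQ (Subgroup.inclusion le_sup_left x)
      (hP x.2) ((F.le_of_mem hθ).2 _)
    rwa [trK_self hχ.2] at this
  · rw [hP']
    ext y
    constructor
    · rintro ⟨x, rfl⟩
      exact ⟨Subgroup.inclusion le_sup_left x, x.2, rfl⟩
    · rintro ⟨x, hx, rfl⟩
      exact ⟨⟨x, hx⟩, rfl⟩
  · have hmap : (Y.subgroupOf N₁).map ψ = P' ⊔ Q := by
      rw [← hrange]
      ext y
      constructor
      · rintro ⟨n, hn, rfl⟩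
        refine ⟨e.symm ⟨n, hn⟩, ?_⟩
        rw [hθ']
        congr 1
        apply Subtype.ext
        simp
      · rintro ⟨x, rfl⟩
        exact ⟨⟨(e x : Y), hYN (e x).2⟩, (e x).2, (hθ' x).symm⟩
    obtain ⟨e', he'⟩ : ∃ e' : Y ≃* ↥(P' ⊔ Q),
        ∀ y : Y, ((e' y : ↥(P' ⊔ Q)) : Ω) = ψ (Subgroup.inclusion hYN y) :=
      ⟨restrictEquiv ψ (F.injective_of_mem hψ) hYN hmap, fun _ => rfl⟩
    have h1 := hY.transfer_of_good hS (hgood.of_isConj ((isConj_iff F).2 ⟨e, he⟩)) e' hYN (hNY.trans hNN) hψ (fun y => (he' y).symm)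
    rw [trK_trans] at h1
    have h2 : ∀ x, (((e.trans e') x : ↥(P' ⊔ Q)) : Ω) = θ x := by
      intro x
      rw [MulEquiv.trans_apply, he', hθ']
      rfl
    rwa [trK_flagK (hQX' := le_sup_right) (P' := P') (e.trans e')
      (fun x => by rw [h2]; exact hθP x) hχ.2
      (fun x => Subtype.ext (by rw [h2, hθQ]; rfl))] at h1

end Cfsg.Agent.Lib.Helper84
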