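import Cfsg.Agent.Lib.Helper84.FusionGenSat1

set_option autoImplicit false

/-! The generation principle (helper84). -/

namespace Cfsg.Agent.Lib.Helper84

open Cfsg Cfsg.FusionSystem

variable {Ω : Type*} [Group Ω] {S : Subgroup Ω}

/-- the subsystem of the maps satisfying a condition `C` on the sources in `PP` -/
def condSystem (F : FusionSystem S) (PP : Set (Subgroup Ω))
    (hPP : ∀ Q ∈ PP, ∀ φ ∈ F.Hom Q, φ.range ∈ PP) (hSPP : S ∉ PP)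
    (C : ∀ Q : Subgroup Ω, (Q →* Ω) → Prop)
    (hres : ∀ Q ∈ PP, ∀ (R : Subgroup Ω) (hQR : Q < R), ∀ φ ∈ F.Hom R,
      C Q (φ.comp (Subgroup.inclusion hQR.le)))
    (hcomp : ∀ Q ∈ PP, ∀ φ ∈ F.Hom Q, ∀ ψ ∈ F.Hom φ.range, C Q φ → C φ.range ψ →
      C Q (ψ.comp φ.rangeRestrict))
    (hinv : ∀ Q ∈ PP, ∀ φ ∈ F.Hom Q, ∀ ψ ∈ F.Hom φ.range, (∀ x : Q, ψ ⟨φ x, ⟨x, rfl⟩⟩ = (x : Ω)) →
      C Q φ → C φ.range ψ) : FusionSystem S where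
  Hom Q := {φ | φ ∈ F.Hom Q ∧ (Q ∈ PP → C Q φ)}
  le_of_mem h := F.le_of_mem h.1
  injective_of_mem h := F.injective_of_mem h.1
  conj_mem := by
    intro Q g hQ hg
    refine ⟨F.conj_mem hQ hg, fun hQPP => ?_⟩
    have hlt : Q < S := lt_of_le_of_ne hQ (fun h => hSPP (h ▸ hQPP))
    exact hres Q hQPP S hlt _ (F.conj_mem le_rfl hg)
  comp_mem := by
    intro P Q φ ψ hφ hψ h
    refine ⟨F.comp_mem hφ.1 hψ.1 h, fun hP => ?_⟩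
    have hle : φ.range ≤ Q := by
      rintro _ ⟨x, rfl⟩
      exact h x
    have hr := hPP P hP φ hφ.1
    have key : C φ.range (ψ.comp (Subgroup.inclusion hle)) := by
      rcases hle.eq_or_lt with heq | hlt
      · subst heq
        exact hψ.2 hr
      · exact hres _ hr Q hlt ψ hψ.1
    exact hcomp P hP φ hφ.1 _ (restrict_mem F hψ.1 hle) (hφ.2 hP) key
  inv_mem := by
    intro P φ hφ
    obtain ⟨ψ, hψ, hψ'⟩ := F.inv_mem hφ.1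
    refine ⟨ψ, ⟨hψ, fun hr => ?_⟩, hψ'⟩
    have hP : P ∈ PP := by
      have h1 := hPP _ hr ψ hψ
      have h2 : ψ.range = P := by
        ext y
        constructor
        · rintro ⟨⟨_, x, rfl⟩, rfl⟩
          rw [hψ']
          exact x.2
        · intro hy
          exact ⟨⟨φ ⟨y, hy⟩, ⟨_, rfl⟩⟩, hψ' ⟨y, hy⟩⟩
      rwa [h2] at h1
    exact hinv P hP φ hφ.1 ψ hψ hψ' (hφ.2 hP)

/-- **Generation principle.** -/
theorem gen_principle (F : FusionSystem S) (PP : Set (Subgroup Ω))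
    (hPP : ∀ Q ∈ PP, ∀ φ ∈ F.Hom Q, φ.range ∈ PP) (hSPP : S ∉ PP)
    (hgen : ∀ E : FusionSystem S, (∀ R, R ∉ PP → F.Hom R ⊆ E.Hom R) → F ≤ E)
    (C : ∀ Q : Subgroup Ω, (Q →* Ω) → Prop)
    (hres : ∀ Q ∈ PP, ∀ (R : Subgroup Ω) (hQR : Q < R), ∀ φ ∈ F.Hom R,
      C Q (φ.comp (Subgroup.inclusion hQR.le)))
    (hcomp : ∀ Q ∈ PP, ∀ φ ∈ F.Hom Q, ∀ ψ ∈ F.Hom φ.range, C Q φ → C φ.range ψ →
      C Q (ψ.comp φ.rangeRestrict))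
    (hinv : ∀ Q ∈ PP, ∀ φ ∈ F.Hom Q, ∀ ψ ∈ F.Hom φ.range, (∀ x : Q, ψ ⟨φ x, ⟨x, rfl⟩⟩ = (x : Ω)) →
      C Q φ → C φ.range ψ) :
    ∀ Q ∈ PP, ∀ φ ∈ F.Hom Q, C Q φ := by
  intro Q hQ φ hφ
  have h := hgen (condSystem F PP hPP hSPP C hres hcomp hinv)
    (fun R hR ψ hψ => ⟨hψ, fun h => absurd h hR⟩) Q hφ
  exact h.2 hQ

end Cfsg.Agent.Lib.Helper84
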