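import Cfsg.Agent.Lib.Helper84.FusionGenSat2
import Cfsg.Agent.Lib.Helper84.FusionAlperin2

set_option autoImplicit false

/-! Pairs `Q ≤ R` and maps between normalizers (helper84). -/

namespace Cfsg.Agent.Lib.Helper84

open Cfsg Cfsg.FusionSystem

variable {Ω : Type*} [Group Ω] {S : Subgroup Ω}

/-- the stabilizer of `Q` in `Aut(R)` -/
def stabK (R Q : Subgroup Ω) : Subgroup (MulAut R) where
  carrier := {α | ∀ x : R, (x : Ω) ∈ Q ↔ ((α x : R) : Ω) ∈ Q}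
  one_mem' := fun _ => Iff.rfl
  mul_mem' := by
    intro α β hα hβ x
    exact (hβ x).trans (hα _)
  inv_mem' := by
    intro α hα x
    have := hα (α⁻¹ x)
    rw [MulAut.apply_inv_self] at this
    exact this.symm

theorem mem_stabK {R Q : Subgroup Ω} {α : MulAut R} :
    α ∈ stabK R Q ↔ ∀ x : R, (x : Ω) ∈ Q ↔ ((α x : R) : Ω) ∈ Q := Iff.rfl

theorem trK_stabK {R R' Q Q' : Subgroup Ω} (e : R ≃* R')
    (h : ∀ x : R, (x : Ω) ∈ Q ↔ ((e x : R') : Ω) ∈ Q') : trK e (stabK R Q) = stabK R' Q' := by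
  ext β
  rw [mem_trK, mem_stabK, mem_stabK]
  constructor
  · intro hβ y
    have h1 := hβ (e.symm y)
    rw [congr_apply_apply, MulEquiv.symm_symm, MulEquiv.apply_symm_apply, h, h,
      MulEquiv.apply_symm_apply, MulEquiv.apply_symm_apply] at h1
    exact h1
  · intro hβ x
    rw [congr_apply_apply, MulEquiv.symm_symm, h, h, MulEquiv.apply_symm_apply]
    exact hβ _

theorem le_normK_stabK {R Q : Subgroup Ω} :
    normalizerIn S R ⊓ normalizerIn S Q ≤ normK S R (stabK R Q) := by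
  rintro g ⟨⟨hg, hgR⟩, -, hgQ⟩
  refine ⟨hg, conjAut R g hgR, fun x => ?_, fun x => rfl⟩
  rw [conjAut_apply]
  exact Subgroup.mem_normalizer_iff.1 hgQ x

/-- extension of an isomorphism of pairs onto a good pair -/
theorem pair_ext [Finite S] {p : ℕ} [Fact p.Prime] (hS : IsPGroup p S) {F : FusionSystem S}
    {R' Q' R₁ Q₁ : Subgroup Ω} (h : KGood F p R' (stabK R' Q')) (e₁ : R₁ ≃* R')
    (he₁ : Mor F e₁.toMonoidHom) (hQ₁ : ∀ x : R₁, (x : Ω) ∈ Q₁ ↔ ((e₁ x : R') : Ω) ∈ Q')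
    (hQR : Q₁ ≤ R₁) (hQR' : Q' ≤ R') (hRN : R₁ ≤ normalizerIn S Q₁) :
    ∃ ψ ∈ F.Hom (normalizerIn S R₁ ⊓ normalizerIn S Q₁),
      (R₁.subgroupOf (normalizerIn S R₁ ⊓ normalizerIn S Q₁)).map ψ = R' ∧
      (Q₁.subgroupOf (normalizerIn S R₁ ⊓ normalizerIn S Q₁)).map ψ = Q' := by
  obtain ⟨χ, hχ, N, hR₁N, hNN, ψ, hψ, hψ'⟩ := h.exists_extension hS e₁ he₁
  have htr : trK e₁.symm (stabK R' Q') = stabK R₁ Q₁ := by
    apply trK_stabK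
    intro y
    rw [hQ₁, MulEquiv.apply_symm_apply]
  rw [htr] at hNN
  have hle : normalizerIn S R₁ ⊓ normalizerIn S Q₁ ≤ N := le_normK_stabK.trans hNN
  have hR₁M : R₁ ≤ normalizerIn S R₁ ⊓ normalizerIn S Q₁ :=
    le_inf (le_normalizerIn he₁.le_left) hRN
  refine ⟨ψ.comp (Subgroup.inclusion hle), restrict_mem F hψ hle, ?_, ?_⟩
  · ext y
    constructor
    · rintro ⟨x, hx, rfl⟩
      show ψ ⟨x, hle x.2⟩ ∈ R'
      rw [hψ' x hx]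
      exact (χ _).2
    · intro hy
      refine ⟨⟨e₁.symm (χ⁻¹ ⟨y, hy⟩), hR₁M (e₁.symm _).2⟩, (e₁.symm _).2, ?_⟩
      show ψ ⟨_, _⟩ = y
      rw [hψ' _ (e₁.symm _).2]
      simp
  · ext y
    constructor
    · rintro ⟨x, hx, rfl⟩
      show ψ ⟨x, hle x.2⟩ ∈ Q'
      rw [hψ' x (hQR hx)]
      exact (hχ.2 _).1 ((hQ₁ ⟨x, hQR hx⟩).1 hx)
    · intro hy
      have h1 : ((χ⁻¹ ⟨y, hQR' hy⟩ : R') : Ω) ∈ Q' :=
        ((Subgroup.inv_mem _ hχ.2) ⟨y, hQR' hy⟩).1 hy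
      have h2 : ((e₁.symm (χ⁻¹ ⟨y, hQR' hy⟩) : R₁) : Ω) ∈ Q₁ := by
        rw [hQ₁, MulEquiv.apply_symm_apply]
        exact h1
      refine ⟨⟨e₁.symm (χ⁻¹ ⟨y, hQR' hy⟩), hR₁M (e₁.symm _).2⟩, h2, ?_⟩
      show ψ ⟨_, _⟩ = y
      rw [hψ' _ (e₁.symm _).2]
      simp

end Cfsg.Agent.Lib.Helper84
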