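import Cfsg.Agent.Lib.Helper84.FusionGenSat3
import Cfsg.Agent.Lib.Helper84.StronglyEmbedded2

set_option autoImplicit false

/-! Maps between normalizers of the members of a maximal bad class (helper84). -/

namespace Cfsg.Agent.Lib.Helper84

open Cfsg Cfsg.FusionSystem

variable {Ω : Type*} [Group Ω] {S : Subgroup Ω}

/-- the context: `P` is fully normalized, all larger subgroups are good, and the system is generated by the maps whose source
is not conjugate to `P`. -/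
structure Ctx (F : FusionSystem S) (p : ℕ) (P : Subgroup Ω) : Prop where
  fn : F.IsFullyNormalized P
  big : ∀ R : Subgroup Ω, R ≤ S → Nat.card P < Nat.card R → Good F p R
  gen : ∀ E : FusionSystem S, (∀ R, ¬ F.IsConj P R → F.Hom R ⊆ E.Hom R) → F ≤ E
  ne : P ≠ S

def Nice (F : FusionSystem S) (P Q : Subgroup Ω) : Prop :=
  ∃ ω ∈ F.Hom (normalizerIn S Q), (Q.subgroupOf (normalizerIn S Q)).map ω = P

def Link (F : FusionSystem S) (P Q R : Subgroup Ω) : Prop :=
  Q < R ∧ R ≤ normalizerIn S Q ∧ ∃ φ ∈ F.Hom R, (Q.subgroupOf R).map φ = P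

theorem map_comp_map {M N' Q Q' P : Subgroup Ω} (ψ : M →* Ω) (ω : N' →* Ω) (h : ∀ x, ψ x ∈ N')
    (h1 : (Q.subgroupOf M).map ψ = Q') (h2 : (Q'.subgroupOf N').map ω = P) :
    (Q.subgroupOf M).map (ω.comp (ψ.codRestrict N' h)) = P := by
  ext y
  constructor
  · rintro ⟨x, hx, rfl⟩
    rw [← h2]
    refine ⟨⟨ψ x, h x⟩, ?_, rfl⟩
    show ψ x ∈ Q'
    rw [← h1]
    exact ⟨x, hx, rfl⟩
  · intro hy
    rw [← h2] at hy
    obtain ⟨z, hz, rfl⟩ := hy
    have hz' : (z : Ω) ∈ Q' := hz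
    rw [← h1] at hz'
    obtain ⟨x, hx, hxz⟩ := hz'
    refine ⟨x, hx, ?_⟩
    show ω ⟨ψ x, h x⟩ = ω z
    congr 1
    exact Subtype.ext hxz

theorem map_inv_map (F : FusionSystem S) {M P Q' : Subgroup Ω} {ψ : M →* Ω} (hψ : ψ ∈ F.Hom M)
    (hPM : P ≤ M) (h1 : (P.subgroupOf M).map ψ = Q') :
    ∃ ψ' ∈ F.Hom ψ.range, (Q'.subgroupOf ψ.range).map ψ' = P := by
  obtain ⟨ψ', hψ', hinv⟩ := F.inv_mem hψ
  refine ⟨ψ', hψ', ?_⟩
  ext y
  constructor
  · rintro ⟨⟨_, x, rfl⟩, hx, rfl⟩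
    rw [hinv]
    have hx' : ψ x ∈ Q' := hx
    rw [← h1] at hx'
    obtain ⟨x', hx', heq⟩ := hx'
    rw [← F.injective_of_mem hψ heq]
    exact hx'
  · intro hy
    refine ⟨⟨ψ ⟨y, hPM hy⟩, ⟨_, rfl⟩⟩, ?_, hinv _⟩
    show ψ ⟨y, hPM hy⟩ ∈ Q'
    rw [← h1]
    exact ⟨⟨y, hPM hy⟩, hy, rfl⟩

theorem card_range_eq (F : FusionSystem S) {M : Subgroup Ω} {ψ : M →* Ω} (hψ : ψ ∈ F.Hom M) :
    Nat.card ψ.range = Nat.card M :=
  (Nat.card_congr (MonoidHom.ofInjective (F.injective_of_mem hψ)).toEquiv).symm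

/-- normalizers grow inside `N_S(Q)` -/
theorem lt_inf_normalizerIn [Finite S] {p : ℕ} [Fact p.Prime] (hS : IsPGroup p S)
    {R Q : Subgroup Ω} (hR : R < normalizerIn S Q) : R < normalizerIn S R ⊓ normalizerIn S Q := by
  have hfin : Finite (normalizerIn S Q) := finite_of_le (normalizerIn_le S Q)
  obtain ⟨t, ht, htR, htN⟩ := exists_mem_normalizer_not_mem (hS.to_le (normalizerIn_le S Q)) hR
  refine lt_of_le_of_ne (le_inf (le_normalizerIn (hR.le.trans (normalizerIn_le S Q))) hR.le) ?_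
  intro h
  apply htR
  rw [h]
  exact ⟨⟨ht.1, htN⟩, ht⟩

theorem link_nice [Finite S] {p : ℕ} [Fact p.Prime] (hS : IsPGroup p S) {F : FusionSystem S}
    {P : Subgroup Ω} (h : Ctx F p P) : ∀ (n : ℕ) (Q R : Subgroup Ω),
    Nat.card S - Nat.card R = n → Link F P Q R → Nice F P Q := by
  intro n
  induction n using Nat.strong_induction_on with
  | _ n ih =>
    rintro Q R hn ⟨hQR, hRN, φ, hφ, hmap⟩
    by_cases hR : R = normalizerIn S Q
    · subst hR
      exact ⟨φ, hφ, hmap⟩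
    have hRlt : R < normalizerIn S Q := lt_of_le_of_ne hRN hR
    have hRS : R ≤ S := (F.le_of_mem hφ).1
    have hfinR : Finite R := finite_of_le hRS
    have hconj : F.IsConj Q P := (isConj_iff F).2 ⟨_, mor_restrictEquiv F hφ hQR.le hmap⟩
    have hcardQ : Nat.card Q = Nat.card P := isConj_card_eq hconj
    have hgoodR : Good F p R := h.big R hRS (by rw [← hcardQ]; exact card_lt_card_of_lt hQR)
    obtain ⟨R', e, he, hK⟩ := exists_KGood_of_good hS hgoodR (stabK R Q)
    obtain ⟨Q', hQ'⟩ : ∃ Q', Q' = (Q.subgroupOf R).map (R'.subtype.comp e.toMonoidHom) := ⟨_, rfl⟩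
    have heQ : ∀ x : R, (x : Ω) ∈ Q ↔ ((e x : R') : Ω) ∈ Q' := by
      intro x
      rw [hQ']
      constructor
      · intro hx
        exact ⟨x, hx, rfl⟩
      · rintro ⟨x', hx', heq⟩
        have : e x' = e x := Subtype.ext heq
        rw [← e.injective this]
        exact hx'
    rw [trK_stabK e heQ] at hK
    have hQ'R' : Q' ≤ R' := by
      rw [hQ']
      rintro _ ⟨x, -, rfl⟩
      exact (e x).2
    obtain ⟨ψ₁, hψ₁, -, hψ₁Q⟩ := pair_ext hS hK e he heQ hQR.le hQ'R' hRN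
    have hf : Mor F (equivOfRange φ (F.injective_of_mem hφ) rfl).toMonoidHom :=
      mor_equivOfRange F hφ rfl
    have hPR₂ : P ≤ φ.range := by
      rw [← hmap]
      rintro _ ⟨x, -, rfl⟩
      exact ⟨x, rfl⟩
    have he' : Mor F ((equivOfRange φ (F.injective_of_mem hφ) rfl).symm.trans e).toMonoidHom :=
      mor_trans hf.symm he
    have hQ₂ : ∀ x : φ.range, (x : Ω) ∈ P ↔
        ((((equivOfRange φ (F.injective_of_mem hφ) rfl).symm.trans e) x : R') : Ω) ∈ Q' := by
      intro x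
      rw [MulEquiv.trans_apply, ← heQ]
      obtain ⟨y, rfl⟩ := (equivOfRange φ (F.injective_of_mem hφ) rfl).surjective x
      rw [MulEquiv.symm_apply_apply, equivOfRange_apply, ← hmap]
      constructor
      · rintro ⟨y', hy', heq⟩
        rw [← F.injective_of_mem hφ heq]
        exact hy'
      · intro hy
        exact ⟨y, hy, rfl⟩
    have hR₂N : φ.range ≤ normalizerIn S P := by
      rintro _ ⟨x, rfl⟩
      exact map_mem_normalizerIn F hφ hmap x (hRN x.2).2
    obtain ⟨ψ₂, hψ₂, -, hψ₂Q⟩ := pair_ext hS hK _ he' hQ₂ hPR₂ hQ'R' hR₂N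
    have hfinN : Finite (normalizerIn S Q) := finite_of_le (normalizerIn_le S Q)
    have hfinNP : Finite (normalizerIn S P) := finite_of_le (normalizerIn_le S P)
    have hc1 : Nat.card R < Nat.card (normalizerIn S Q) := card_lt_card_of_lt hRlt
    have hc2 : Nat.card (normalizerIn S Q) ≤ Nat.card (normalizerIn S P) :=
      h.fn.2 Q (isConj_symm hconj)
    have hc3 : Nat.card φ.range = Nat.card R := card_range_eq F hφ
    have hR₂lt : φ.range < normalizerIn S P := by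
      refine lt_of_le_of_ne hR₂N (fun heq => ?_)
      rw [heq] at hc3
      omega
    have hM₂ := lt_inf_normalizerIn hS hR₂lt
    have hM₁ := lt_inf_normalizerIn hS hRlt
    have hM₂S : normalizerIn S φ.range ⊓ normalizerIn S P ≤ S := inf_le_left.trans (normalizerIn_le _ _)
    have hM₁S : normalizerIn S R ⊓ normalizerIn S Q ≤ S := inf_le_left.trans (normalizerIn_le _ _)
    have hfinM₂ : Finite (normalizerIn S φ.range ⊓ normalizerIn S P : Subgroup Ω) := finite_of_le hM₂S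
    have hfinM₁ : Finite (normalizerIn S R ⊓ normalizerIn S Q : Subgroup Ω) := finite_of_le hM₁S
    have hc4 := card_lt_card_of_lt hM₂
    have hc5 := card_lt_card_of_lt hM₁
    have hc6 : Nat.card ψ₂.range = _ := card_range_eq F hψ₂
    have hc7 : Nat.card (normalizerIn S φ.range ⊓ normalizerIn S P : Subgroup Ω) ≤ Nat.card S :=
      Subgroup.card_le_of_le hM₂S
    have hc8 : Nat.card (normalizerIn S R ⊓ normalizerIn S Q : Subgroup Ω) ≤ Nat.card S :=
      Subgroup.card_le_of_le hM₁S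
    -- `Q'` is nice
    have hPM₂ : P ≤ normalizerIn S φ.range ⊓ normalizerIn S P := hPR₂.trans hM₂.le
    have hniceQ' : Nice F P Q' := by
      obtain ⟨ψ', hψ', hψ'map⟩ := map_inv_map F hψ₂ hPM₂ hψ₂Q
      refine ih (Nat.card S - Nat.card ψ₂.range) (by omega) Q' ψ₂.range rfl ⟨?_, ?_, ψ', hψ', hψ'map⟩
      · have hle : Q' ≤ ψ₂.range := by
          rw [← hψ₂Q]
          rintro _ ⟨x, -, rfl⟩
          exact ⟨x, rfl⟩
        refine lt_of_le_of_ne hle (fun heq => ?_)
        have h1 : Nat.card Q' = Nat.card P :=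
          (isConj_card_eq ((isConj_iff F).2 ⟨_, mor_restrictEquiv F hψ₂ hPM₂ hψ₂Q⟩)).symm
        rw [heq] at h1
        have h2 : Nat.card Q < Nat.card R := card_lt_card_of_lt hQR
        omega
      · rintro _ ⟨x, rfl⟩
        exact map_mem_normalizerIn F hψ₂ hψ₂Q x x.2.2.2
    obtain ⟨ω, hω, hωmap⟩ := hniceQ'
    have hval : ∀ x, ψ₁ x ∈ normalizerIn S Q' :=
      fun x => map_mem_normalizerIn F hψ₁ hψ₁Q x x.2.2.2
    exact ih (Nat.card S - Nat.card (normalizerIn S R ⊓ normalizerIn S Q : Subgroup Ω)) (by omega) Q _ rfl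
      ⟨hQR.trans hM₁, inf_le_right, _, F.comp_mem hψ₁ hω hval, map_comp_map ψ₁ ω hval hψ₁Q hωmap⟩

end Cfsg.Agent.Lib.Helper84
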