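import Cfsg.Agent.Lib.Helper84.FusionGenSat4

set_option autoImplicit false

/-! Every member of the bad class maps with its normalizer into `N_S(P)` (helper84). -/

namespace Cfsg.Agent.Lib.Helper84

open Cfsg Cfsg.FusionSystem

variable {Ω : Type*} [Group Ω] {S : Subgroup Ω}

theorem range_comp_inclusion {Q R : Subgroup Ω} (hQR : Q ≤ R) (φ : R →* Ω) :
    (φ.comp (Subgroup.inclusion hQR)).range = (Q.subgroupOf R).map φ := by
  ext y
  constructor
  · rintro ⟨x, rfl⟩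
    exact ⟨Subgroup.inclusion hQR x, x.2, rfl⟩
  · rintro ⟨x, hx, rfl⟩
    exact ⟨⟨x, hx⟩, rfl⟩

theorem range_comp_rangeRestrict {Q : Subgroup Ω} (φ : Q →* Ω) (ψ : φ.range →* Ω) :
    (ψ.comp φ.rangeRestrict).range = ψ.range := by
  ext y
  constructor
  · rintro ⟨x, rfl⟩
    exact ⟨_, rfl⟩
  · rintro ⟨⟨_, x, rfl⟩, rfl⟩
    exact ⟨x, rfl⟩

theorem range_inv {Q : Subgroup Ω} (φ : Q →* Ω) (ψ : φ.range →* Ω)
    (h : ∀ x : Q, ψ ⟨φ x, ⟨x, rfl⟩⟩ = (x : Ω)) : ψ.range = Q := by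
  ext y
  constructor
  · rintro ⟨⟨_, x, rfl⟩, rfl⟩
    rw [h]
    exact x.2
  · intro hy
    exact ⟨⟨φ ⟨y, hy⟩, ⟨_, rfl⟩⟩, h ⟨y, hy⟩⟩

theorem nice_step [Finite S] {p : ℕ} [Fact p.Prime] (hS : IsPGroup p S) {F : FusionSystem S}
    {P : Subgroup Ω} (h : Ctx F p P) {Q R : Subgroup Ω} (hQR : Q < R) {φ : R →* Ω}
    (hφ : φ ∈ F.Hom R) (hn : Nice F P ((Q.subgroupOf R).map φ)) : Nice F P Q := by
  have hRS : R ≤ S := (F.le_of_mem hφ).1
  have hfinR : Finite R := finite_of_le hRS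
  obtain ⟨t, htR, htQ, htN⟩ := exists_mem_normalizer_not_mem (hS.to_le hRS) hQR
  have hQS : Q ≤ S := hQR.le.trans hRS
  have hlt : Q < R ⊓ normalizerIn S Q := by
    refine lt_of_le_of_ne (le_inf hQR.le (le_normalizerIn hQS)) (fun heq => htQ ?_)
    rw [heq]
    exact ⟨htR, hRS htR, htN⟩
  obtain ⟨ω, hω, hωmap⟩ := hn
  have hφ₁ : φ.comp (Subgroup.inclusion (inf_le_left : R ⊓ normalizerIn S Q ≤ R)) ∈
      F.Hom (R ⊓ normalizerIn S Q) := restrict_mem F hφ inf_le_left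
  have hmap₁ : (Q.subgroupOf (R ⊓ normalizerIn S Q)).map
      (φ.comp (Subgroup.inclusion (inf_le_left : R ⊓ normalizerIn S Q ≤ R))) =
      (Q.subgroupOf R).map φ := by
    ext y
    constructor
    · rintro ⟨x, hx, rfl⟩
      exact ⟨Subgroup.inclusion inf_le_left x, hx, rfl⟩
    · rintro ⟨x, hx, rfl⟩
      exact ⟨⟨x, hlt.le hx⟩, hx, rfl⟩
  have hval : ∀ x, (φ.comp (Subgroup.inclusion (inf_le_left : R ⊓ normalizerIn S Q ≤ R))) x ∈
      normalizerIn S ((Q.subgroupOf R).map φ) :=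
    fun x => map_mem_normalizerIn F hφ₁ hmap₁ x x.2.2.2
  exact link_nice hS h _ Q _ rfl ⟨hlt, inf_le_right, _, F.comp_mem hφ₁ hω hval,
    map_comp_map _ ω hval hmap₁ hωmap⟩

theorem all_nice [Finite S] {p : ℕ} [Fact p.Prime] (hS : IsPGroup p S) {F : FusionSystem S}
    {P : Subgroup Ω} (h : Ctx F p P) : ∀ Q, F.IsConj P Q → Nice F P Q := by
  have hPS : P ≤ S := h.fn.1
  have hSPP : S ∉ {Q | F.IsConj P Q} := by
    intro hc
    exact h.ne (Subgroup.eq_of_le_of_card_ge hPS (isConj_card_eq hc).ge)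
  have key := gen_principle F {Q | F.IsConj P Q}
    (fun Q hQ φ hφ => isConj_trans hQ ⟨φ, hφ, rfl⟩) hSPP h.gen
    (fun Q φ => Nice F P Q ↔ Nice F P φ.range)
    (by
      intro Q _ R hQR φ hφ
      rw [range_comp_inclusion]
      refine ⟨fun hn => ?_, nice_step hS h hQR hφ⟩
      obtain ⟨ψ, hψ, hψmap⟩ := map_inv_map F hφ hQR.le rfl
      have hlt : (Q.subgroupOf R).map φ < φ.range := by
        refine lt_of_le_of_ne ?_ (fun heq => ?_)
        · rintro _ ⟨x, -, rfl⟩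
          exact ⟨x, rfl⟩
        · obtain ⟨x, hxR, hxQ⟩ := SetLike.exists_of_lt hQR
          have h1 : φ ⟨x, hxR⟩ ∈ (Q.subgroupOf R).map φ := by
            rw [heq]; exact ⟨_, rfl⟩
          obtain ⟨x', hx', heq'⟩ := h1
          have := F.injective_of_mem hφ heq'
          rw [this] at hx'
          exact hxQ hx'
      apply nice_step hS h hlt hψ
      rw [hψmap]
      exact hn)
    (by
      intro Q _ φ _ ψ _ h1 h2
      rw [range_comp_rangeRestrict]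
      exact h1.trans h2)
    (by
      intro Q _ φ _ ψ _ hinv h1
      rw [range_inv φ ψ hinv]
      exact h1.symm)
  rintro Q ⟨φ, hφ, rfl⟩
  refine (key P (isConj_refl F hPS) φ hφ).1 ⟨_, subtype_mem F (normalizerIn_le S P), ?_⟩
  ext y
  constructor
  · rintro ⟨x, hx, rfl⟩
    exact hx
  · intro hy
    exact ⟨⟨y, le_normalizerIn hPS hy⟩, hy, rfl⟩

end Cfsg.Agent.Lib.Helper84
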