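import Cfsg.Agent.Lib.Helper84.YoshidaW
import Cfsg.Agent.Lib.Helper2.PGroupFrattini

set_option autoImplicit false

/-! The group theoretic core of Yoshida's theorem, for an abstract cocycle on a `G`-set (helper84). -/

namespace Cfsg.Agent.Lib.Helper84.Yoshida

/-- existence of maps which are equivariant on an invariant subset -/
theorem exists_equivariant_on {G X R : Type*} [Group G] [MulAction G X] [MulAction G R] [Nonempty R]
    (B : X → Prop) (hB : ∀ (g : G) (x : X), B x → B (g • x))
    (H : ∀ x : X, B x → ∃ r : R, ∀ g : G, g • x = x → g • r = r) :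
    ∃ f : X → R, ∀ (g : G) (x : X), B x → f (g • x) = g • f x := by
  classical
  have H' : ∀ x : X, ∃ r : R, B x → ∀ g : G, g • x = x → g • r = r := by
    intro x
    by_cases h : B x
    · obtain ⟨r, hr⟩ := H x h
      exact ⟨r, fun _ => hr⟩
    · exact ⟨Classical.arbitrary R, fun h' => absurd h' h⟩
  choose r hr using H'
  have hex : ∀ x : X, ∃ g : G,
      g • (Quotient.out (Quotient.mk (MulAction.orbitRel G X) x)) = x := by
    intro x
    have h1 := (MulAction.orbitRel G X).symm
      (Quotient.exact (Quotient.out_eq (Quotient.mk (MulAction.orbitRel G X) x)))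
    obtain ⟨g, hg⟩ := h1
    exact ⟨g, hg⟩
  choose γ hγ using hex
  refine ⟨fun x => γ x • r (Quotient.out (Quotient.mk (MulAction.orbitRel G X) x)), ?_⟩
  intro g x hx
  have hq : Quotient.mk (MulAction.orbitRel G X) (g • x) = Quotient.mk (MulAction.orbitRel G X) x :=
    Quotient.sound ⟨g, rfl⟩
  show γ (g • x) • r (Quotient.out (Quotient.mk (MulAction.orbitRel G X) (g • x))) =
    g • γ x • r (Quotient.out (Quotient.mk (MulAction.orbitRel G X) x))
  have h1 := hγ (g • x)
  rw [hq] at h1 ⊢
  have h0 := hγ x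
  generalize γ (g • x) = c at h1 ⊢
  generalize Quotient.out (Quotient.mk (MulAction.orbitRel G X) x) = y at h1 h0 ⊢
  have hy : B y := by
    have h5 := hB (γ x)⁻¹ x hx
    have h6 : (γ x)⁻¹ • x = y := by rw [inv_smul_eq_iff, h0]
    rwa [h6] at h5
  have h2 : (c⁻¹ * (g * γ x)) • y = y := by
    rw [mul_smul, mul_smul, h0, ← h1, inv_smul_smul]
  have h3 := hr y hy _ h2
  rw [mul_smul, inv_smul_eq_iff, mul_smul] at h3
  exact h3.symm

variable {G J C : Type*} [Group G] [MulAction G J] [DecidableEq J] [CommGroup C]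

/-- a product over an invariant set is trivial if the products over all the cycles are. -/
theorem cyc (x : G) (hx : 0 < orderOf x) (f : J → C) :
    ∀ A : Finset J, (∀ j ∈ A, x • j ∈ A) →
      (∀ j ∈ A, ∏ i ∈ Finset.range (MulAction.period x j), f (x ^ i • j) = 1) →
      ∏ j ∈ A, f j = 1 := by
  intro A
  induction A using Finset.strongInduction with
  | H A ih =>
    intro hA hf
    rcases A.eq_empty_or_nonempty with rfl | ⟨j, hj⟩
    · simp
    set n := MulAction.period x j with hn
    have hn0 : 0 < n := MulAction.period_pos_of_orderOf_pos hx j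
    set O := (Finset.range n).image (fun i => x ^ i • j) with hO
    have hpowA : ∀ i : ℕ, x ^ i • j ∈ A := by
      intro i
      induction i with
      | zero => simpa using hj
      | succ i ih' => rw [pow_succ', mul_smul]; exact hA _ ih'
    have hOA : O ⊆ A := by
      intro a ha
      obtain ⟨i, -, rfl⟩ := Finset.mem_image.1 ha
      exact hpowA i
    have hinj : Set.InjOn (fun i => x ^ i • j) (Finset.range n : Set ℕ) := by
      have key : ∀ i k : ℕ, i ≤ k → k < n → x ^ i • j = x ^ k • j → i = k := by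
        intro i k hik hk h
        obtain ⟨d, rfl⟩ := Nat.exists_eq_add_of_le hik
        rw [pow_add, mul_smul] at h
        have h1 := (smul_left_cancel _ h).symm
        rw [MulAction.pow_smul_eq_iff_period_dvd] at h1
        have := Nat.eq_zero_of_dvd_of_lt h1 (by omega)
        omega
      intro i hi k hk h
      rw [Finset.coe_range, Set.mem_Iio] at hi hk
      rcases le_total i k with h' | h'
      · exact key i k h' hk h
      · exact (key k i h' hi h.symm).symm
    have hOprod : ∏ a ∈ O, f a = 1 := by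
      rw [hO, Finset.prod_image hinj]
      exact hf j hj
    have hjO : j ∈ O := Finset.mem_image.2 ⟨0, Finset.mem_range.2 hn0, by simp⟩
    have hlt : A \ O ⊂ A := by
      refine Finset.ssubset_iff_subset_ne.2 ⟨Finset.sdiff_subset, ?_⟩
      intro h
      have : j ∈ A \ O := by rw [h]; exact hj
      exact (Finset.mem_sdiff.1 this).2 hjO
    have hinv : ∀ a ∈ A \ O, x • a ∈ A \ O := by
      intro a ha
      obtain ⟨ha1, ha2⟩ := Finset.mem_sdiff.1 ha
      refine Finset.mem_sdiff.2 ⟨hA a ha1, fun h => ha2 ?_⟩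
      obtain ⟨i, hi, hia⟩ := Finset.mem_image.1 h
      rw [Finset.mem_range] at hi
      have hia' : x ^ i • j = x • a := hia
      rcases Nat.eq_zero_or_pos i with rfl | hi0
      · refine Finset.mem_image.2 ⟨n - 1, Finset.mem_range.2 (by omega), ?_⟩
        apply smul_left_cancel x
        show x • x ^ (n - 1) • j = x • a
        rw [← mul_smul, ← pow_succ', Nat.sub_add_cancel hn0, ← hia', pow_zero, one_smul]
        exact MulAction.pow_period_smul x j
      · refine Finset.mem_image.2 ⟨i - 1, Finset.mem_range.2 (by omega), ?_⟩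
        apply smul_left_cancel x
        show x • x ^ (i - 1) • j = x • a
        rw [← mul_smul, ← pow_succ', Nat.sub_add_cancel hi0, hia']
    have h1 := ih (A \ O) hlt hinv (fun a ha => hf a (Finset.mem_sdiff.1 ha).1)
    rw [← Finset.prod_sdiff hOA, h1, hOprod, one_mul]

section cocycle

variable (c : G → J → C) (hc : ∀ (g g' : G) (j : J), c (g * g') j = c g' j * c g (g' • j))

include hc

theorem coc_one (j : J) : c 1 j = 1 := by
  have := hc 1 1 j
  rw [mul_one, one_smul] at this
  exact left_eq_mul.1 this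

theorem coc_pow (x : G) (n : ℕ) (j : J) :
    c (x ^ n) j = ∏ i ∈ Finset.range n, c x (x ^ i • j) := by
  induction n with
  | zero => simp [coc_one c hc]
  | succ n ih => rw [pow_succ', hc, ih, Finset.prod_range_succ]

/-- the cycles of length `> 1` do not contribute -/
theorem prod_eq_one_of_no_fixed (x : G) (hx : 0 < orderOf x)
    (hmin : ∀ (y : G) (j : J), orderOf y < orderOf x → y • j = j → c y j = 1)
    (A : Finset J) (hA : ∀ j ∈ A, x • j ∈ A) (hfix : ∀ j ∈ A, x • j ≠ j) :
    ∏ j ∈ A, c x j = 1 := by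
  apply cyc x hx (c x) A hA
  intro j hj
  rw [← coc_pow c hc]
  apply hmin _ _ _ (MulAction.pow_period_smul x j)
  have h0 : 0 < MulAction.period x j := MulAction.period_pos_of_orderOf_pos hx j
  have h1 : MulAction.period x j ≠ 1 := by
    intro h
    have := MulAction.pow_period_smul x j
    rw [h, pow_one] at this
    exact hfix j hj this
  rw [orderOf_pow_of_dvd h0.ne' (MulAction.period_dvd_orderOf x j)]
  exact Nat.div_lt_self hx (by omega)

end cocycle

section block

variable (c : G → J → C) (hc : ∀ (g g' : G) (j : J), c (g * g') j = c g' j * c g (g' • j))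
  (M : Subgroup G) [M.Normal] [DecidableEq (G ⧸ M)]
  (B : Finset J) (hB : ∀ (g : G), ∀ j ∈ B, g • j ∈ B)
  (π : J → G ⧸ M) (hπ : ∀ (g : G), ∀ j ∈ B, π (g • j) = g • π j)

/-- the blocks -/
def blk (r : G ⧸ M) : Finset J := B.filter (fun j => π j = r)

include hB hπ in
theorem prod_blk (t : G) (r : G ⧸ M) (f : J → C) :
    ∏ j ∈ blk M B π (t • r), f j = ∏ j ∈ blk M B π r, f (t • j) := by
  apply Finset.prod_nbij' (fun j => t⁻¹ • j) (fun j => t • j)
  · intro j hj
    obtain ⟨h1, h2⟩ := Finset.mem_filter.1 hj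
    exact Finset.mem_filter.2 ⟨hB _ _ h1, by rw [hπ _ _ h1, h2, inv_smul_smul]⟩
  · intro j hj
    obtain ⟨h1, h2⟩ := Finset.mem_filter.1 hj
    exact Finset.mem_filter.2 ⟨hB _ _ h1, by rw [hπ _ _ h1, h2]⟩
  · intro j _; exact smul_inv_smul t j
  · intro j _; exact inv_smul_smul t j
  · intro j _; rw [smul_inv_smul]

omit [DecidableEq (G ⧸ M)] [M.Normal] in
theorem smul_one_of_mem (y : M) : (y : G) • ((1 : G) : G ⧸ M) = ((1 : G) : G ⧸ M) := by
  show (((y : G) * 1 : G) : G ⧸ M) = ((1 : G) : G ⧸ M)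
  apply QuotientGroup.eq.2
  simp

include hB hπ in
theorem prod_blk_mem (y : M) (f : J → C) :
    ∏ j ∈ blk M B π ((1 : G) : G ⧸ M), f ((y : G) • j) = ∏ j ∈ blk M B π ((1 : G) : G ⧸ M), f j := by
  rw [← prod_blk M B hB π hπ, smul_one_of_mem]

/-- the character of `M` attached to the first block -/
noncomputable def lamB : M →* C :=
  MonoidHom.mk' (fun y => ∏ j ∈ blk M B π ((1 : G) : G ⧸ M), c y j) (by
    intro y y'
    rw [← prod_blk_mem M B hB π hπ y' (fun j => c y j), mul_comm, ← Finset.prod_mul_distrib]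
    apply Finset.prod_congr rfl
    intro j _
    exact hc y y' j)

theorem lamB_apply (y : M) :
    lamB c hc M B hB π hπ y = ∏ j ∈ blk M B π ((1 : G) : G ⧸ M), c y j := rfl

theorem prod_blk_conj (x : M) (t : G) :
    ∏ j ∈ blk M B π (t • ((1 : G) : G ⧸ M)), c x j =
      lamB c hc M B hB π hπ (MulAut.conjNormal t⁻¹ x) := by
  rw [prod_blk M B hB π hπ, lamB_apply]
  set x' : M := MulAut.conjNormal t⁻¹ x with hx'
  have e : (x : G) * t = t * (x' : G) := by
    rw [hx', MulAut.conjNormal_apply]
    group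
  have h1 : ∀ j, c x (t • j) = c x' j * (c t ((x' : G) • j) * (c t j)⁻¹) := by
    intro j
    have e1 := hc x t j
    have e2 := hc t x' j
    rw [e, e2] at e1
    rw [← mul_assoc, e1]
    rw [mul_comm (c t j), mul_inv_cancel_right]
  rw [Finset.prod_congr rfl (fun j _ => h1 j), Finset.prod_mul_distrib, Finset.prod_mul_distrib,
    prod_blk_mem M B hB π hπ x' (fun j => c t j), Finset.prod_inv_distrib, mul_inv_cancel, mul_one]

theorem prod_eq_prod_range [Finite G] {p : ℕ} [hp : Fact p.Prime] (hM : M.index = p) (g : G)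
    (hg : g ∉ M) (x : M) :
    ∏ j ∈ B, c x j =
      ∏ i ∈ Finset.range p, lamB c hc M B hB π hπ (MulAut.conjNormal ((g⁻¹) ^ i) x) := by
  letI : Fintype (G ⧸ M) := Fintype.ofFinite _
  have hord : orderOf (g : G ⧸ M) = p := by
    apply orderOf_eq_prime
    · rw [← QuotientGroup.mk_pow, QuotientGroup.eq_one_iff]
      exact hM ▸ Subgroup.pow_index_mem M g
    · rwa [Ne, QuotientGroup.eq_one_iff]
  have hsm : ∀ i : ℕ, g ^ i • ((1 : G) : G ⧸ M) = (g : G ⧸ M) ^ i := by
    intro i
    show ((g ^ i * 1 : G) : G ⧸ M) = _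
    rw [mul_one, QuotientGroup.mk_pow]
  have hinj : Set.InjOn (fun i : ℕ => g ^ i • ((1 : G) : G ⧸ M)) (Finset.range p : Set ℕ) := by
    intro i hi k hk h
    simp only [hsm] at h
    rw [Finset.coe_range, ← hord] at hi hk
    exact pow_injOn_Iio_orderOf hi hk h
  have huniv : (Finset.range p).image (fun i : ℕ => g ^ i • ((1 : G) : G ⧸ M)) = Finset.univ := by
    apply Finset.eq_univ_of_card
    rw [Finset.card_image_of_injOn hinj, Finset.card_range, ← Nat.card_eq_fintype_card,
      ← Subgroup.index_eq_card, hM]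
  rw [← Finset.prod_fiberwise B π, ← huniv, Finset.prod_image hinj]
  apply Finset.prod_congr rfl
  intro i _
  rw [inv_pow]
  exact prod_blk_conj c hc M B hB π hπ x (g ^ i)

end block

section core

variable [Finite G] {p : ℕ} [hp : Fact p.Prime] (hG : IsPGroup p G)
  (hC : ∀ H : Subgroup C, (∀ z ∈ H, z ^ p = 1) → Nat.card H ∣ p)
  (hW : ¬ ∃ (W : Sylow p (Equiv.Perm (Fin (p ^ 2)))) (f : G →* W), Function.Surjective f)
  (c : G → J → C) (hc : ∀ (g g' : G) (j : J), c (g * g') j = c g' j * c g (g' • j))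
  (hcp : ∀ (g : G) (j : J), c g j ^ p = 1) (x : G)
  (hmin : ∀ (y : G) (j : J), orderOf y < orderOf x → y • j = j → c y j = 1)

include hG hC hW hc hcp hmin

theorem core_M (M : Subgroup G) [M.Normal] (hM : M.index = p) (B : Finset J)
    (hB : ∀ (g : G), ∀ j ∈ B, g • j ∈ B) (hst : ∀ j ∈ B, MulAction.stabilizer G j ≤ M) :
    ∏ j ∈ B, c x j = 1 := by
  classical
  by_cases hx : x ∈ M
  · obtain ⟨π, hπ⟩ := exists_equivariant_on (G := G) (X := J) (R := G ⧸ M) (fun j => j ∈ B) hB (by
      intro j hj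
      refine ⟨((1 : G) : G ⧸ M), fun g hg => ?_⟩
      exact smul_one_of_mem M ⟨g, hst j hj hg⟩)
    obtain ⟨g, hg⟩ : ∃ g : G, g ∉ M := by
      by_contra h
      push_neg at h
      have : M = ⊤ := (Subgroup.eq_top_iff' M).2 h
      rw [this, Subgroup.index_top] at hM
      exact hp.out.one_lt.ne hM
    have h1 := prod_eq_prod_range c hc M B hB π hπ hM g hg ⟨x, hx⟩
    by_contra hne
    apply hW
    refine criterionW M (lamB c hc M B hB π hπ) g hG hC hM ?_ ⟨x, hx⟩ ?_
    · intro y
      rw [lamB_apply, ← Finset.prod_pow]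
      exact Finset.prod_eq_one (fun j _ => hcp _ _)
    · rw [← h1]
      exact hne
  · apply prod_eq_one_of_no_fixed c hc x (orderOf_pos x) hmin B (hB x)
    intro j hj h
    exact hx (hst j hj h)

theorem core_nonfixed : ∀ B : Finset J, (∀ (g : G), ∀ j ∈ B, g • j ∈ B) →
    (∀ j ∈ B, ∃ g : G, g • j ≠ j) → ∏ j ∈ B, c x j = 1 := by
  classical
  intro B
  induction B using Finset.strongInduction with
  | H B ih =>
    intro hB hnf
    rcases B.eq_empty_or_nonempty with rfl | ⟨j₀, hj₀⟩
    · simp
    have hne : MulAction.stabilizer G j₀ ≠ ⊤ := by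
      intro h
      obtain ⟨g, hg⟩ := hnf j₀ hj₀
      exact hg (show g ∈ MulAction.stabilizer G j₀ by rw [h]; trivial)
    obtain ⟨M, hM, hle⟩ := (eq_top_or_exists_le_coatom _).resolve_left hne
    obtain ⟨hMn, hMi⟩ := Cfsg.Agent.Lib.Helper2.isCoatom_normal_index hG hM
    set B₁ := B.filter (fun j => MulAction.stabilizer G j ≤ M) with hB₁
    have hst : ∀ (g : G) (j : J), MulAction.stabilizer G j ≤ M →
        MulAction.stabilizer G (g • j) ≤ M := by
      intro g j hj h hh
      have h1 : g⁻¹ * h * g ∈ MulAction.stabilizer G j := by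
        rw [MulAction.mem_stabilizer_iff, mul_smul, mul_smul, MulAction.mem_stabilizer_iff.1 hh,
          inv_smul_smul]
      have h2 := hMn.conj_mem _ (hj h1) g
      simpa [mul_assoc] using h2
    have hB₁inv : ∀ (g : G), ∀ j ∈ B₁, g • j ∈ B₁ := by
      intro g j hj
      obtain ⟨h1, h2⟩ := Finset.mem_filter.1 hj
      exact Finset.mem_filter.2 ⟨hB g j h1, hst g j h2⟩
    have h1 : ∏ j ∈ B₁, c x j = 1 :=
      core_M hG hC hW c hc hcp x hmin M hMi B₁ hB₁inv (fun j hj => (Finset.mem_filter.1 hj).2)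
    have hsub : B₁ ⊆ B := Finset.filter_subset _ _
    have hlt : B \ B₁ ⊂ B := by
      refine Finset.ssubset_iff_subset_ne.2 ⟨Finset.sdiff_subset, ?_⟩
      intro h
      have : j₀ ∈ B \ B₁ := by rw [h]; exact hj₀
      exact (Finset.mem_sdiff.1 this).2 (Finset.mem_filter.2 ⟨hj₀, hle⟩)
    have hinv : ∀ (g : G), ∀ j ∈ B \ B₁, g • j ∈ B \ B₁ := by
      intro g j hj
      obtain ⟨h2, h3⟩ := Finset.mem_sdiff.1 hj
      refine Finset.mem_sdiff.2 ⟨hB g j h2, fun h => h3 ?_⟩
      have := hB₁inv g⁻¹ _ h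
      rwa [inv_smul_smul] at this
    have h2 := ih (B \ B₁) hlt hinv (fun j hj => hnf j (Finset.mem_sdiff.1 hj).1)
    rw [← Finset.prod_sdiff hsub, h1, h2, one_mul]

/-- **The core of Yoshida's theorem.** -/
theorem core [Fintype J] [DecidablePred (fun j : J => ∀ g : G, g • j = j)] :
    ∏ j, c x j = ∏ j ∈ Finset.univ.filter (fun j : J => ∀ g : G, g • j = j), c x j := by
  rw [← Finset.prod_filter_mul_prod_filter_not Finset.univ (fun j : J => ∀ g : G, g • j = j)]
  rw [core_nonfixed hG hC hW c hc hcp x hmin (Finset.univ.filter (fun j : J => ¬ ∀ g : G, g • j = j)),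
    mul_one]
  · intro g j hj
    rw [Finset.mem_filter] at hj ⊢
    refine ⟨Finset.mem_univ _, fun h => hj.2 (fun g' => ?_)⟩
    have := h (g * g' * g⁻¹)
    rw [mul_smul, mul_smul, inv_smul_smul] at this
    exact smul_left_cancel g this
  · intro j hj
    have := (Finset.mem_filter.1 hj).2
    push_neg at this
    exact this

end core

end Cfsg.Agent.Lib.Helper84.Yoshida
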