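import Mathlib

set_option autoImplicit false

/-! A criterion for a `p`-group to have the wreath product `C_p ≀ C_p` as a quotient (helper84). -/

namespace Cfsg.Agent.Lib.Helper84.Yoshida

open scoped fwdDiff

theorem choose_pred_zmod (p : ℕ) [hp : Fact p.Prime] (k : ℕ) (hk : k ≤ p - 1) :
    (((p - 1).choose k : ℕ) : ZMod p) = (-1) ^ k := by
  induction k with
  | zero => simp
  | succ k ih =>
    have hp1 := hp.out.one_lt
    have h1 : p ∣ p.choose (k + 1) := hp.out.dvd_choose_self (by omega) (by omega)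
    have h2 : p.choose (k + 1) = (p - 1).choose k + (p - 1).choose (k + 1) := by
      obtain ⟨q, rfl⟩ : ∃ q, p = q + 1 := ⟨p - 1, by omega⟩
      simp [Nat.choose_succ_succ]
    have h3 : ((p.choose (k + 1) : ℕ) : ZMod p) = 0 := (ZMod.natCast_eq_zero_iff _ _).2 h1
    rw [h2, Nat.cast_add, ih (by omega)] at h3
    rw [pow_succ]
    linear_combination h3

theorem zsmul_eq_self_of_cast {A : Type*} [AddCommGroup A] (p : ℕ) (e : ℤ)
    (he : (e : ZMod p) = 1) (a : A) (ha : p • a = 0) : e • a = a := by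
  have h1 : ((e - 1 : ℤ) : ZMod p) = 0 := by
    push_cast
    rw [he, sub_self]
  obtain ⟨t, ht⟩ := (ZMod.intCast_zmod_eq_zero_iff_dvd _ _).1 h1
  have h2 : e = 1 + t * p := by linarith
  rw [h2, add_smul, one_smul, mul_smul, natCast_zsmul, ha, smul_zero, add_zero]

theorem fwdDiff_pred {A : Type*} [AddCommGroup A] (p : ℕ) [hp : Fact p.Prime] (f : ℕ → A)
    (hf : ∀ n, p • f n = 0) (n : ℕ) :
    (fwdDiff 1)^[p - 1] f n = ∑ k ∈ Finset.range p, f (n + k) := by
  have hp1 := hp.out.one_lt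
  rw [fwdDiff_iter_eq_sum_shift, Nat.sub_add_cancel hp1.le]
  apply Finset.sum_congr rfl
  intro k hk
  rw [Finset.mem_range] at hk
  rw [smul_eq_mul, mul_one]
  apply zsmul_eq_self_of_cast p _ _ _ (hf _)
  push_cast
  rw [choose_pred_zmod p k (by omega), ← pow_add, Nat.sub_add_cancel (by omega)]
  exact ZMod.pow_card_sub_one_eq_one (neg_ne_zero.2 one_ne_zero)

theorem fwdDiff_prime {A : Type*} [AddCommGroup A] (p : ℕ) [hp : Fact p.Prime] (f : ℕ → A)
    (hf : ∀ n, p • f n = 0) (hper : ∀ n, f (n + p) = f n) :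
    (fwdDiff 1)^[p] f = 0 := by
  have hp1 := hp.out.one_lt
  obtain ⟨q, hq⟩ : ∃ q, p = q + 1 := ⟨p - 1, by omega⟩
  have h1 : (fwdDiff 1)^[p] f = fwdDiff 1 ((fwdDiff 1)^[p - 1] f) := by
    conv_lhs => rw [hq]
    rw [Function.iterate_succ_apply']
    congr 2
    omega
  rw [h1]
  funext n
  rw [fwdDiff, fwdDiff_pred p f hf, fwdDiff_pred p f hf, Pi.zero_apply]
  have h2 : ∑ k ∈ Finset.range p, f (n + 1 + k) = ∑ k ∈ Finset.range p, f (n + (k + 1)) := by
    apply Finset.sum_congr rfl
    intro k _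
    congr 1
    omega
  rw [h2]
  have h3 := Finset.sum_range_succ (fun k => f (n + k)) p
  have h4 := Finset.sum_range_succ' (fun k => f (n + k)) p
  rw [h3] at h4
  rw [hper, add_zero] at h4
  rw [sub_eq_zero]
  exact (add_right_cancel h4).symm

theorem card_mul_le_of_lt {P : Type*} [Group P] [Finite P] {p : ℕ} [hp : Fact p.Prime]
    (hP : IsPGroup p P) {H K : Subgroup P} (h : H < K) : p * Nat.card H ≤ Nat.card K := by
  have h1 := Subgroup.card_mul_index (H.subgroupOf K)
  rw [Nat.card_congr (Subgroup.subgroupOfEquivOfLe h.le).toEquiv] at h1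
  obtain ⟨n, hn⟩ := (hP.to_subgroup K).index (H.subgroupOf K)
  have hn0 : n ≠ 0 := by
    rintro rfl
    rw [pow_zero, Subgroup.index_eq_one, Subgroup.subgroupOf_eq_top] at hn
    exact absurd hn (not_le_of_gt h)
  rw [← h1, hn, mul_comm]
  apply Nat.mul_le_mul_left
  calc p = p ^ 1 := (pow_one p).symm
    _ ≤ p ^ n := Nat.pow_le_pow_right hp.out.pos (Nat.one_le_iff_ne_zero.2 hn0)

section crit

variable {G : Type*} [Group G] {C : Type*} [CommGroup C] (M : Subgroup G) [M.Normal]
  (lam : M →* C) (g : G)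

/-- the sequence of values of the conjugates of `lam` -/
def useq (y : M) (n : ℕ) : Additive C := Additive.ofMul (lam (MulAut.conjNormal ((g⁻¹) ^ n) y))

theorem useq_mul (y y' : M) : useq M lam g (y * y') = useq M lam g y + useq M lam g y' := by
  funext n
  simp only [useq, map_mul, Pi.add_apply, ofMul_mul]

theorem useq_one : useq M lam g 1 = 0 := by
  funext n
  simp only [useq, map_one, Pi.zero_apply, ofMul_one]

theorem useq_inv (y : M) : useq M lam g y⁻¹ = - useq M lam g y := by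
  funext n
  simp only [useq, map_inv, Pi.neg_apply, ofMul_inv]

theorem useq_shift (y : M) (n : ℕ) :
    useq M lam g (MulAut.conjNormal g⁻¹ y) n = useq M lam g y (n + 1) := by
  simp only [useq, pow_succ, map_mul, MulAut.mul_apply]

theorem useq_D (y : M) :
    useq M lam g (MulAut.conjNormal g⁻¹ y * y⁻¹) = fwdDiff 1 (useq M lam g y) := by
  funext n
  rw [useq_mul, useq_inv, Pi.add_apply, Pi.neg_apply, useq_shift, fwdDiff, sub_eq_add_neg]

theorem useq_D_iter (y : M) (k : ℕ) :
    useq M lam g ((fun y : M => MulAut.conjNormal g⁻¹ y * y⁻¹)^[k] y) =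
      (fwdDiff 1)^[k] (useq M lam g y) := by
  induction k with
  | zero => rfl
  | succ k ih => rw [Function.iterate_succ_apply', Function.iterate_succ_apply', useq_D, ih]

theorem fwdDiff_iter_zero' {A : Type*} [AddCommGroup A] (k : ℕ) :
    (fwdDiff 1)^[k] (0 : ℕ → A) = 0 := by
  have := fwdDiff_iter_add (h := 1) (0 : ℕ → A) 0 k
  rw [add_zero] at this
  exact left_eq_add.1 this

theorem fwdDiff_iter_neg' {A : Type*} [AddCommGroup A] (f : ℕ → A) (k : ℕ) :
    (fwdDiff 1)^[k] (-f) = - (fwdDiff 1)^[k] f := by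
  have := fwdDiff_iter_add (h := 1) f (-f) k
  rw [add_neg_cancel, fwdDiff_iter_zero'] at this
  exact (neg_eq_of_add_eq_zero_right this.symm).symm

/-- the filtration -/
def filt (k : ℕ) : Subgroup M where
  carrier := {y | (fwdDiff 1)^[k] (useq M lam g y) = 0}
  one_mem' := by
    show (fwdDiff 1)^[k] (useq M lam g 1) = 0
    rw [useq_one, fwdDiff_iter_zero']
  mul_mem' := by
    intro a b ha hb
    show (fwdDiff 1)^[k] (useq M lam g (a * b)) = 0
    rw [useq_mul, fwdDiff_iter_add, show (fwdDiff 1)^[k] (useq M lam g a) = 0 from ha,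
      show (fwdDiff 1)^[k] (useq M lam g b) = 0 from hb, add_zero]
  inv_mem' := by
    intro a ha
    show (fwdDiff 1)^[k] (useq M lam g a⁻¹) = 0
    rw [useq_inv, fwdDiff_iter_neg', show (fwdDiff 1)^[k] (useq M lam g a) = 0 from ha, neg_zero]

theorem mem_filt (k : ℕ) (y : M) :
    y ∈ filt M lam g k ↔ (fwdDiff 1)^[k] (useq M lam g y) = 0 := Iff.rfl

theorem filt_le_succ (k : ℕ) : filt M lam g k ≤ filt M lam g (k + 1) := by
  intro y hy
  rw [mem_filt] at hy ⊢
  rw [Function.iterate_succ_apply', hy]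
  funext n
  simp [fwdDiff]

theorem useq_periodic {p : ℕ} (hM : M.index = p) (y : M) (n : ℕ) :
    useq M lam g y (n + p) = useq M lam g y n := by
  have h1 : (g⁻¹) ^ p ∈ M := hM ▸ Subgroup.pow_index_mem M g⁻¹
  have h2 : MulAut.conjNormal ((g⁻¹) ^ (n + p)) y =
      (⟨_, h1⟩ : M) * MulAut.conjNormal ((g⁻¹) ^ n) y * (⟨_, h1⟩ : M)⁻¹ := by
    apply Subtype.ext
    rw [add_comm, pow_add, map_mul, MulAut.mul_apply, MulAut.conjNormal_apply]
    rfl
  simp only [useq]
  congr 1
  rw [h2, map_mul, map_mul, map_inv, mul_comm, inv_mul_cancel_left]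

theorem filt_lt_succ {p : ℕ} [hp : Fact p.Prime] (hM : M.index = p) (hlam : ∀ y, lam y ^ p = 1)
    (x : M) (hx : ∏ i ∈ Finset.range p, lam (MulAut.conjNormal ((g⁻¹) ^ i) x) ≠ 1)
    (k : ℕ) (hk : k < p) : filt M lam g k < filt M lam g (k + 1) := by
  have hpt : ∀ n, p • useq M lam g x n = 0 := by
    intro n
    simp only [useq]
    rw [← ofMul_pow, hlam, ofMul_one]
  refine lt_of_le_of_ne (filt_le_succ M lam g k) ?_
  intro heq
  have h1 : (fun y : M => MulAut.conjNormal g⁻¹ y * y⁻¹)^[p - 1 - k] x ∈ filt M lam g (k + 1) := by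
    rw [mem_filt, useq_D_iter, ← Function.iterate_add_apply,
      show k + 1 + (p - 1 - k) = p by omega]
    exact fwdDiff_prime p _ hpt (useq_periodic M lam g hM x)
  rw [← heq, mem_filt, useq_D_iter, ← Function.iterate_add_apply,
    show k + (p - 1 - k) = p - 1 by omega] at h1
  have h2 := congrFun h1 0
  rw [fwdDiff_pred p _ hpt, Pi.zero_apply] at h2
  apply hx
  have h3 : ∑ k ∈ Finset.range p, useq M lam g x (0 + k) =
      Additive.ofMul (∏ i ∈ Finset.range p, lam (MulAut.conjNormal ((g⁻¹) ^ i) x)) := by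
    rw [ofMul_prod]
    apply Finset.sum_congr rfl
    intro i _
    rw [zero_add]
    rfl
  rw [h3] at h2
  exact h2

theorem card_filt_le [Finite G] {p : ℕ} [hp : Fact p.Prime] (hG : IsPGroup p G)
    (hM : M.index = p) (hlam : ∀ y, lam y ^ p = 1)
    (x : M) (hx : ∏ i ∈ Finset.range p, lam (MulAut.conjNormal ((g⁻¹) ^ i) x) ≠ 1)
    (k : ℕ) (hk : k ≤ p) : p ^ k * Nat.card (filt M lam g 0) ≤ Nat.card (filt M lam g k) := by
  induction k with
  | zero => simp
  | succ k ih =>
    have h1 := card_mul_le_of_lt (hG.to_subgroup M) (filt_lt_succ M lam g hM hlam x hx k (by omega))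
    calc p ^ (k + 1) * Nat.card (filt M lam g 0) = p * (p ^ k * Nat.card (filt M lam g 0)) := by ring
      _ ≤ p * Nat.card (filt M lam g k) := Nat.mul_le_mul_left _ (ih (by omega))
      _ ≤ _ := h1

theorem card_sylow_perm (p : ℕ) [hp : Fact p.Prime] (W : Sylow p (Equiv.Perm (Fin (p ^ 2)))) :
    Nat.card W = p ^ (p + 1) := by
  have e := Sylow.mulEquivIteratedWreathProduct p 2 (Fin (p ^ 2)) (by simp)
    (Multiplicative (ZMod p)) (by simp) W
  rw [Nat.card_congr e.toEquiv, IteratedWreathProduct.card]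
  simp [Finset.sum_range_succ, add_comm]

/-- **The criterion**: a `p`-group with a maximal subgroup `M` and a character `lam` of `M` of order `p` whose "norm" is
non-trivial maps onto `C_p ≀ C_p`. -/
theorem criterionW [Finite G] {p : ℕ} [hp : Fact p.Prime] (hG : IsPGroup p G)
    (hC : ∀ H : Subgroup C, (∀ z ∈ H, z ^ p = 1) → Nat.card H ∣ p)
    (hM : M.index = p) (hlam : ∀ y, lam y ^ p = 1)
    (x : M) (hx : ∏ i ∈ Finset.range p, lam (MulAut.conjNormal ((g⁻¹) ^ i) x) ≠ 1) :
    ∃ (W : Sylow p (Equiv.Perm (Fin (p ^ 2)))) (f : G →* W), Function.Surjective f := by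
  classical
  have hp1 := hp.out.one_lt
  -- the kernel of `lam` has index `p`
  have hne : lam.range ≠ ⊥ := by
    intro h
    apply hx
    apply Finset.prod_eq_one
    intro i _
    have : lam (MulAut.conjNormal ((g⁻¹) ^ i) x) ∈ lam.range := ⟨_, rfl⟩
    rw [h, Subgroup.mem_bot] at this
    exact this
  have hr : Nat.card lam.range = p := by
    have h1 := hC lam.range (by rintro _ ⟨y, rfl⟩; exact hlam y)
    rcases (Nat.dvd_prime hp.out).1 h1 with h2 | h2
    · exact absurd (Subgroup.card_eq_one.1 h2) hne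
    · exact h2
  have hK : (lam.ker.map M.subtype).index = p ^ 2 := by
    rw [Subgroup.index_map_subtype, Subgroup.index_ker, hr, hM, sq]
  set K' := lam.ker.map M.subtype with hK'
  have e : G ⧸ K' ≃ Fin (p ^ 2) := Finite.equivFinOfCardEq (by rw [← Subgroup.index_eq_card, hK])
  set f : G →* Equiv.Perm (Fin (p ^ 2)) :=
    e.permCongrHom.toMonoidHom.comp (MulAction.toPermHom G (G ⧸ K')) with hf
  have hker : f.ker ≤ (filt M lam g 0).map M.subtype := by
    intro z hz
    have h1 : z ∈ K'.normalCore := by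
      rw [Subgroup.normalCore_eq_ker, MonoidHom.mem_ker]
      rw [MonoidHom.mem_ker, hf, MonoidHom.comp_apply] at hz
      exact e.permCongrHom.injective (hz.trans (map_one _).symm)
    have h2 : ∀ b : G, b * z * b⁻¹ ∈ K' := h1
    have hzM : z ∈ M := by
      have := h2 1
      simp only [one_mul, inv_one, mul_one] at this
      exact Subgroup.map_subtype_le _ this
    refine ⟨⟨z, hzM⟩, ?_, rfl⟩
    show (fwdDiff 1)^[0] (useq M lam g ⟨z, hzM⟩) = 0
    funext n
    obtain ⟨w, hw, hw'⟩ := h2 ((g⁻¹) ^ n)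
    have h3 : MulAut.conjNormal ((g⁻¹) ^ n) (⟨z, hzM⟩ : M) = w := by
      apply Subtype.ext
      rw [MulAut.conjNormal_apply]
      exact hw'.symm
    show Additive.ofMul (lam (MulAut.conjNormal ((g⁻¹) ^ n) (⟨z, hzM⟩ : M))) = 0
    rw [h3, MonoidHom.mem_ker.1 hw, ofMul_one]
  have hc1 : Nat.card f.ker ≤ Nat.card (filt M lam g 0) := by
    have := Subgroup.card_le_of_le hker
    rwa [Subgroup.card_map_of_injective M.subtype_injective] at this
  have hc2 := card_filt_le M lam g hG hM hlam x hx p le_rfl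
  have hc3 : Nat.card (filt M lam g p) ≤ Nat.card M := Subgroup.card_le_card_group _
  have hc4 : Nat.card M * p = Nat.card G := hM ▸ Subgroup.card_mul_index M
  have hc5 : Nat.card f.ker * Nat.card f.range = Nat.card G := by
    rw [← Subgroup.index_ker, Subgroup.card_mul_index]
  have hc6 : p ^ (p + 1) ≤ Nat.card f.range := by
    have h1 : p ^ (p + 1) * Nat.card f.ker ≤ Nat.card f.range * Nat.card f.ker := by
      calc p ^ (p + 1) * Nat.card f.ker ≤ p ^ (p + 1) * Nat.card (filt M lam g 0) :=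
            Nat.mul_le_mul_left _ hc1
        _ = (p ^ p * Nat.card (filt M lam g 0)) * p := by ring
        _ ≤ Nat.card M * p := Nat.mul_le_mul_right _ (hc2.trans hc3)
        _ = Nat.card f.range * Nat.card f.ker := by rw [hc4, ← hc5, mul_comm]
    exact Nat.le_of_mul_le_mul_right h1 Nat.card_pos
  have hpr : IsPGroup p f.range := hG.of_surjective f.rangeRestrict f.rangeRestrict_surjective
  obtain ⟨W, hW⟩ := hpr.exists_le_sylow
  have hWeq : f.range = W := by
    apply Subgroup.eq_of_le_of_card_ge hW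
    rw [card_sylow_perm p W]
    exact hc6
  refine ⟨W, f.codRestrict W (fun z => hW ⟨z, rfl⟩), ?_⟩
  rintro ⟨w, hw⟩
  have hw' : w ∈ f.range := by rw [hWeq]; exact hw
  obtain ⟨z, rfl⟩ := hw'
  exact ⟨z, rfl⟩

end crit

end Cfsg.Agent.Lib.Helper84.Yoshida
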